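import Cfsg.Agent.H809.IF.EngC

/-!
# S5719, involution fixity: the inequalities in a central cover of odd kernel (helper232)

`LF B` : the consequences of `IF A Γ` for `B = π⁻¹(A)`, `π : S → T` surjective, with central kernel without involutions.
-/

set_option autoImplicit false
set_option linter.unusedSectionVars false

namespace Cfsg.Agent.H232.IFR

open Subgroup Cfsg.Agent.H209.Fxy

/-- the inequalities for the preimage `B` of `A` -/
structure LF {S : Type*} [Group S] (B : Subgroup S) : Prop where
  e2 : ∀ a ∈ B, a ≠ 1 → a * a = 1 → ∀ C ≤ centralizer ({a} : Set S),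
    B.relIndex C ^ 5 < (centralizer ({a} : Set S)).index
  e4 : ∀ s ∈ B, ∀ t ∈ B, s ≠ 1 → t ≠ 1 → s * s = 1 → t * t = 1 → s ≠ t → s * t = t * s →
    B.index ^ 2 * (centralizer ({s} : Set S)).relIndex (centralizer ({t} : Set S)) ^ 3 <
      (centralizer ({s} : Set S)).index ^ 3

section

variable {S T : Type*} [Group S] [Group T] [Finite T] [IsSimpleGroup T] {A : Subgroup T} {Γ : Subgroup (MulAut T)}

/-- the preimage of the centraliser of an involution -/
theorem comap_centralizer (π : S →* T) (hker : ∀ z ∈ π.ker, z ∈ Subgroup.center S ∧ (z * z = 1 → z = 1)) {a : S}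
    (ha : a * a = 1) : (centralizer ({π a} : Set T)).comap π = centralizer ({a} : Set S) := by
  ext g
  rw [Subgroup.mem_comap, mem_centralizer_singleton_iff, mem_centralizer_singleton_iff]
  constructor
  · intro h
    have hz : g * a * g⁻¹ * a⁻¹ ∈ π.ker := by
      rw [MonoidHom.mem_ker, map_mul, map_mul, map_mul, map_inv, map_inv, h, mul_inv_cancel_right, mul_inv_cancel]
    obtain ⟨h1, h2⟩ := hker _ hz
    set z := g * a * g⁻¹ * a⁻¹ with hz'
    have h3 : g * a * g⁻¹ = z * a := by rw [hz']; group
    have h4 : (z * a) * (z * a) = 1 := by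
      rw [← h3]
      have : g * a * g⁻¹ * (g * a * g⁻¹) = g * (a * a) * g⁻¹ := by group
      rw [this, ha, mul_one, mul_inv_cancel]
    have h5 : z * z = 1 := by
      have h6 : z * a * (z * a) = z * z * (a * a) := by
        have h7 : a * z = z * a := (Subgroup.mem_center_iff.1 h1 a)
        calc z * a * (z * a) = z * (a * z) * a := by group
          _ = z * (z * a) * a := by rw [h7]
          _ = z * z * (a * a) := by group
      rw [h6, ha, mul_one] at h4
      exact h4
    have h6 := h2 h5
    rw [h6, one_mul] at h3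
    rw [← mul_inv_eq_iff_eq_mul]
    exact h3
  · intro h
    rw [← map_mul, h, map_mul]

theorem orderOf_image (π : S →* T) (hker : ∀ z ∈ π.ker, z ∈ Subgroup.center S ∧ (z * z = 1 → z = 1)) {a : S}
    (ha : a * a = 1) (ha1 : a ≠ 1) : orderOf (π a) = 2 := by
  have : Fact (Nat.Prime 2) := ⟨Nat.prime_two⟩
  apply orderOf_eq_prime
  · rw [pow_two, ← map_mul, ha, map_one]
  · intro h
    exact ha1 ((hker a h).2 ha)

/-- **The inequalities in the cover.** -/
theorem lf_of (π : S →* T) (hπ : Function.Surjective π)
    (hker : ∀ z ∈ π.ker, z ∈ Subgroup.center S ∧ (z * z = 1 → z = 1)) (hna : ∃ a b : T, a * b ≠ b * a) (h : IF A Γ) :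
    LF (A.comap π) := by
  have hrel : ∀ (H K : Subgroup T), (H.comap π).relIndex (K.comap π) = H.relIndex K := by
    intro H K
    rw [Subgroup.relIndex_comap, Subgroup.map_comap_eq_self_of_surjective hπ]
  refine ⟨?_, ?_⟩
  · intro a ha ha1 ha2 C hC
    have h1 := (Cfsg.Agent.H999.IFB.IF.E2' h hna (t := π a) ha (orderOf_image π hker ha2 ha1)).2.2.2.2 (C.map π) (by
      rw [Subgroup.map_le_iff_le_comap, comap_centralizer π hker ha2]
      exact hC)
    rw [Subgroup.relIndex_comap, ← comap_centralizer π hker ha2, Subgroup.index_comap_of_surjective _ hπ]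
    exact h1.1
  · intro s hs t ht hs1 ht1 hs2 ht2 hst hc
    have h1 := (Cfsg.Agent.H809.IFC.IF.E4 h hna (s := π s) (t := π t) hs ht (orderOf_image π hker hs2 hs1) (orderOf_image π hker ht2 ht1)
      (by
        intro h2
        have hz : s * t⁻¹ ∈ π.ker := by rw [MonoidHom.mem_ker, map_mul, map_inv, h2, mul_inv_cancel]
        have h3 := (hker _ hz).2 (by
          have h4 : t⁻¹ = t := inv_eq_of_mul_eq_one_left ht2
          rw [h4]
          calc s * t * (s * t) = s * (t * s) * t := by group
            _ = (s * s) * (t * t) := by rw [← hc]; group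
            _ = 1 := by rw [hs2, ht2, one_mul])
        exact hst (mul_inv_eq_one.1 h3)) (by rw [← map_mul, hc, map_mul])).2.1
    rw [← comap_centralizer π hker hs2, ← comap_centralizer π hker ht2, Subgroup.index_comap_of_surjective _ hπ,
      Subgroup.index_comap_of_surjective _ hπ, hrel]
    exact h1

end

end Cfsg.Agent.H232.IFR
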