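import Cfsg.Agent.H232.IF.SLEnd
import Cfsg.Agent.H934.IdxCl
import Cfsg.Agent.H209.IF.Kill
import Cfsg.Agent.S0249

/-!
# S5719: `PSL_n(q)`, `q` even, `n ≥ 5`, `A` of even order (helper232)
-/

set_option autoImplicit false
set_option linter.unusedSectionVars false

namespace Cfsg.Agent.H232.IFR

open Subgroup Matrix Module Cfsg.Agent.H209.Fxy Cfsg.Agent.H851.Dg Cfsg.Agent.H847.Bs

section

variable {F : Type} [Field F]

theorem range_sl (n : ℕ) :
    (SpecialLinearGroup.toLin' : SpecialLinearGroup (Fin n) F →* _).range = slV F (Fin n → F) := by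
  ext g
  constructor
  · rintro ⟨A, rfl⟩
    show LinearMap.det (Matrix.toLin' (A : Matrix (Fin n) (Fin n) F)) = 1
    rw [LinearMap.det_toLin', A.2]
  · intro hg
    have hg' : LinearMap.det (g : (Fin n → F) →ₗ[F] (Fin n → F)) = 1 := hg
    refine ⟨⟨LinearMap.toMatrix' (g : (Fin n → F) →ₗ[F] (Fin n → F)), by rw [LinearMap.det_toMatrix', hg']⟩, ?_⟩
    apply LinearEquiv.toLinearMap_injective
    exact Matrix.toLin'_toMatrix' _

/-- `SL(F^n) ≃ SL_n(F)` -/
theorem sl_std (n : ℕ) : Nonempty (slV F (Fin n → F) ≃* SpecialLinearGroup (Fin n) F) :=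
  ⟨((MonoidHom.ofInjective SpecialLinearGroup.toLin'_injective).trans
      (MulEquiv.subgroupCongr (range_sl n))).symm⟩

theorem center_sl_pow [Fintype F] {n : ℕ} (hn : 0 < n) {z : SpecialLinearGroup (Fin n) F}
    (hz : z ∈ Subgroup.center (SpecialLinearGroup (Fin n) F)) : z ^ (Fintype.card F - 1) = 1 := by
  rw [Matrix.SpecialLinearGroup.mem_center_iff] at hz
  obtain ⟨r, hr, hrz⟩ := hz
  rw [Fintype.card_fin] at hr
  have hr0 : r ≠ 0 := by
    rintro rfl
    rw [zero_pow hn.ne'] at hr
    exact zero_ne_one hr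
  apply Subtype.ext
  rw [Matrix.SpecialLinearGroup.coe_pow, ← hrz, ← map_pow, FiniteField.pow_card_sub_one_eq_one r hr0, map_one]
  rfl

theorem two_eq_zero [Fintype F] (h : Even (Fintype.card F)) : (2 : F) = 0 := by
  have h1 : ringChar F = 2 := FiniteField.even_card_iff_char_two.2 (Nat.even_iff.1 h)
  have h2 := (ringChar.spec F 2).2 (by rw [h1])
  exact_mod_cast h2

end

theorem odd_pow_eq {S : Type*} [Group S] {z : S} (hz : z * z = 1) {k : ℕ} (hk : Odd k) : z ^ k = z := by
  obtain ⟨j, rfl⟩ := hk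
  rw [pow_succ, pow_mul, pow_two, hz, one_pow, one_mul]

/-- a proper non-trivial subgroup in a simple group: the group is not commutative -/
theorem hna_of {T : Type*} [Group T] [IsSimpleGroup T] {A : Subgroup T} {Γ : Subgroup (MulAut T)} (h : IF A Γ) :
    ∃ a b : T, a * b ≠ b * a := by
  by_contra hcon
  push Not at hcon
  have hn : A.Normal := ⟨fun a ha g => by rw [hcon g a, mul_inv_cancel_right]; exact ha⟩
  rcases hn.eq_bot_or_eq_top with h1 | h1
  · exact h.ne_bot h1
  · exact h.ne_top h1

/-- **`PSL_n(q)`, `q` even, `n ≥ 5`: no counterexample with `A` of even order.** -/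
theorem killE_psl_even (F : Type) [Field F] [Fintype F] (n : ℕ) (hev : Even (Fintype.card F)) (hn : 5 ≤ n) :
    KillE (ProjectiveSpecialLinearGroup (Fin n) F) := by
  rintro A Γ h ⟨t, ht, ho⟩
  have hs : IsSimpleGroup (ProjectiveSpecialLinearGroup (Fin n) F) := S0249.result n (by omega)
  have hfin : Finite (ProjectiveSpecialLinearGroup (Fin n) F) := by
    unfold ProjectiveSpecialLinearGroup
    infer_instance
  have h2 := two_eq_zero hev
  have hq1 : Odd (Fintype.card F - 1) := by
    have := Fintype.card_pos (α := F)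
    have h3 := Nat.even_iff.1 hev
    rw [Nat.odd_iff]
    omega
  obtain ⟨e⟩ := sl_std (F := F) n
  set p : SpecialLinearGroup (Fin n) F →* ProjectiveSpecialLinearGroup (Fin n) F :=
    QuotientGroup.mk' (Subgroup.center (SpecialLinearGroup (Fin n) F)) with hp
  have hps : Function.Surjective p := QuotientGroup.mk'_surjective _
  set π : slV F (Fin n → F) →* ProjectiveSpecialLinearGroup (Fin n) F := p.comp e.toMonoidHom with hπ
  have hπs : Function.Surjective π := hps.comp e.surjective
  have hkz : ∀ z ∈ π.ker, e z ∈ Subgroup.center (SpecialLinearGroup (Fin n) F) := by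
    intro z hz
    have h3 : p (e z) = 1 := hz
    rwa [← MonoidHom.mem_ker, hp, QuotientGroup.ker_mk'] at h3
  have hkp : ∀ z ∈ π.ker, z ^ (Fintype.card F - 1) = 1 := by
    intro z hz
    apply e.injective
    rw [map_pow, map_one]
    exact center_sl_pow (by omega) (hkz z hz)
  have hker : ∀ z ∈ π.ker, z ∈ Subgroup.center (slV F (Fin n → F)) ∧ (z * z = 1 → z = 1) := by
    intro z hz
    refine ⟨?_, ?_⟩
    · rw [Subgroup.mem_center_iff]
      intro g
      apply e.injective
      rw [map_mul, map_mul]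
      exact Subgroup.mem_center_iff.1 (hkz z hz) (e g)
    · intro hzz
      rw [← odd_pow_eq hzz hq1]
      exact hkp z hz
  have hlf : LF (A.comap π) := lf_of π hπs hker (hna_of h) h
  refine no_LF (F := F) (V := Fin n → F) h2 (by rw [Module.finrank_fin_fun]; exact hn) hlf ?_ ?_
  · obtain ⟨x, hx⟩ := hπs t
    have htt : t * t = 1 := by rw [← pow_two, ← ho, pow_orderOf_eq_one]
    have hxx : x * x ∈ π.ker := by rw [MonoidHom.mem_ker, map_mul, hx, htt]
    have hπa : π (x ^ (Fintype.card F - 1)) = t := by rw [map_pow, hx, odd_pow_eq htt hq1]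
    refine ⟨x ^ (Fintype.card F - 1), ?_, ?_, ?_⟩
    · show π (x ^ (Fintype.card F - 1)) ∈ A
      rw [hπa]
      exact ht
    · intro h1
      rw [h1, map_one] at hπa
      rw [← hπa, orderOf_one] at ho
      omega
    · rw [← (Commute.refl x).mul_pow]
      exact hkp _ hxx
  · rw [Module.finrank_fin_fun, Subgroup.index_comap_of_surjective _ hπs, Nat.card_eq_fintype_card]
    have := Cfsg.Agent.H934.IdxCl.psl (ι := Fin n) (F := F) (by rw [Fintype.card_fin]; omega) hs A h.ne_top
    rwa [Fintype.card_fin] at this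

end Cfsg.Agent.H232.IFR
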