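import Cfsg.Agent.H950.Count
import Cfsg.Agent.H881.Bs.Conj

/-!
# S5719, row SL even: counting maps with `n² = 0` (helper232)
-/

set_option autoImplicit false
set_option linter.unusedSectionVars false

namespace Cfsg.Agent.H232.IFR

open Module
open Cfsg.Agent.H881.Bs (card_le_of_fiber)

section

variable {F V : Type*} [Field F] [Finite F] [AddCommGroup V] [Module F V] [FiniteDimensional F V]

theorem card_subspaces_le {k : ℕ} (hk : k ≤ finrank F V) :
    Nat.card {W : Submodule F V // finrank F W = k} ≤ Nat.card F ^ (k * (finrank F V - k + 1)) := by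
  have := Fintype.ofFinite F
  set q := Fintype.card F with hq
  have hq2 : 2 ≤ q := Fintype.one_lt_card
  have h1 := Cfsg.Agent.H950.card_subspaces_eq (V := V) (n := finrank F V) (k := k) (q := q) rfl hk rfl
  have hP : 0 < ∏ j : Fin k, q ^ (k - j.val - 1) := Finset.prod_pos fun j _ => by positivity
  have h2 : ∏ j : Fin k, q ^ (k - j.val - 1) ≤ ∏ j : Fin k, (q ^ (k - j.val) - 1) := by
    apply Finset.prod_le_prod' 
    intro j _
    obtain ⟨i, hi⟩ : ∃ i, k - j.val = i + 1 := ⟨k - j.val - 1, by have := j.2; omega⟩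
    rw [hi, Nat.add_sub_cancel, pow_succ]
    have h3 : 0 < q ^ i := by positivity
    have h4 : q ^ i * 2 ≤ q ^ i * q := Nat.mul_le_mul_left _ hq2
    omega
  have h3 : ∏ j : Fin k, (q ^ (finrank F V - j.val) - 1) ≤
      (∏ j : Fin k, q ^ (k - j.val - 1)) * q ^ (k * (finrank F V - k + 1)) := by
    have h4 : q ^ (k * (finrank F V - k + 1)) = ∏ _j : Fin k, q ^ (finrank F V - k + 1) := by
      rw [Finset.prod_const, Finset.card_univ, Fintype.card_fin, ← pow_mul, mul_comm]
    rw [h4, ← Finset.prod_mul_distrib]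
    apply Finset.prod_le_prod'
    intro j _
    rw [← pow_add]
    have h5 : k - j.val - 1 + (finrank F V - k + 1) = finrank F V - j.val := by have := j.2; omega
    rw [h5]
    exact Nat.sub_le _ _
  rw [Nat.card_eq_fintype_card (α := F), ← hq]
  have h5 : Nat.card {W : Submodule F V // finrank F W = k} * ∏ j : Fin k, q ^ (k - j.val - 1) ≤
      q ^ (k * (finrank F V - k + 1)) * ∏ j : Fin k, q ^ (k - j.val - 1) := by
    calc _ ≤ Nat.card {W : Submodule F V // finrank F W = k} * ∏ j : Fin k, (q ^ (k - j.val) - 1) :=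
          Nat.mul_le_mul_left _ h2
      _ = _ := h1
      _ ≤ _ := h3
      _ = _ := mul_comm _ _
  exact Nat.le_of_mul_le_mul_right h5 hP

/-- the number of maps with `n² = 0` of rank `k` -/
theorem card_nil_le (k : ℕ) (hk : k ≤ finrank F V) :
    Nat.card {n : V →ₗ[F] V // n * n = 0 ∧ finrank F (LinearMap.range n) = k} ≤
      Nat.card F ^ (2 * k * (finrank F V - k) + k) := by
  have hVfin : Finite V := Module.finite_of_finite F
  have hfin : Finite (V →ₗ[F] V) := Finite.of_injective (fun g : V →ₗ[F] V => (g : V → V)) DFunLike.coe_injective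
  have hfinS : Finite (Submodule F V) := Finite.of_injective (fun W : Submodule F V => (W : Set V)) SetLike.coe_injective
  have h1 := card_le_of_fiber (fun n : {n : V →ₗ[F] V // n * n = 0 ∧ finrank F (LinearMap.range n) = k} =>
    (⟨LinearMap.range n.1, n.2.2⟩ : {W : Submodule F V // finrank F W = k}))
    (Nat.card F ^ ((finrank F V - k) * k)) ?_
  · refine h1.trans ((Nat.mul_le_mul_left _ (card_subspaces_le hk)).trans (le_of_eq ?_))
    rw [← pow_add]
    congr 1
    ring
  · rintro ⟨W, hW⟩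
    have hker : ∀ n : V →ₗ[F] V, n * n = 0 → LinearMap.range n = W → W ≤ LinearMap.ker n := by
      rintro n hn rfl _ ⟨v, rfl⟩
      rw [LinearMap.mem_ker]
      exact LinearMap.congr_fun hn v
    have h2 : Nat.card ((V ⧸ W) →ₗ[F] W) = Nat.card F ^ ((finrank F V - k) * k) := by
      rw [Module.natCard_eq_pow_finrank (K := F), Module.finrank_linearMap, hW, Submodule.finrank_quotient, hW]
    rw [← h2]
    have hfQ : Finite (V ⧸ W) := Finite.of_surjective _ (Submodule.mkQ_surjective W)
    have hfin2 : Finite ((V ⧸ W) →ₗ[F] W) :=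
      Finite.of_injective (fun g : (V ⧸ W) →ₗ[F] W => (g : V ⧸ W → W)) DFunLike.coe_injective
    have hr : ∀ n : {a : {n : V →ₗ[F] V // n * n = 0 ∧ finrank F (LinearMap.range n) = k} //
        (⟨LinearMap.range a.1, a.2.2⟩ : {W : Submodule F V // finrank F W = k}) = ⟨W, hW⟩},
        LinearMap.range n.1.1 = W := fun n => congrArg Subtype.val n.2
    refine Nat.card_le_card_of_injective (fun n =>
      W.liftQ (n.1.1.codRestrict W (fun v => (hr n).le ⟨v, rfl⟩)) (by
        intro w hw
        rw [LinearMap.mem_ker]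
        apply Subtype.ext
        exact hker n.1.1 n.1.2.1 (hr n) hw)) ?_
    intro n n' h
    apply Subtype.ext
    apply Subtype.ext
    ext v
    have h3 := congrArg Subtype.val (LinearMap.congr_fun h (Submodule.Quotient.mk v))
    exact h3

/-- vectors killed by a functional and so on -/
theorem card_dual_ann (w : V) (hw : w ≠ 0) : Nat.card {ψ : Dual F V // ψ w = 0} = Nat.card F ^ (finrank F V - 1) := by
  have h1 : Nat.card {ψ : Dual F V // ψ w = 0} = Nat.card (LinearMap.ker (Dual.eval F V w)) :=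
    Nat.card_congr (Equiv.subtypeEquivRight fun ψ => Iff.rfl)
  have hVfin : Finite V := Module.finite_of_finite F
  rw [h1, Module.natCard_eq_pow_finrank (K := F)]
  congr 1
  have h2 : Dual.eval F V w ≠ 0 := by
    intro h
    apply hw
    exact (Module.eval_apply_eq_zero_iff F w).1 h
  have h3 := LinearMap.finrank_range_add_finrank_ker (Dual.eval F V w)
  have h4 : finrank F (LinearMap.range (Dual.eval F V w)) = 1 := by
    have h5 : LinearMap.range (Dual.eval F V w) = ⊤ := LinearMap.range_eq_top.2 (LinearMap.surjective h2)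
    rw [h5, finrank_top, finrank_self]
  rw [h4, Subspace.dual_finrank_eq] at h3
  omega

/-- `w ↦ ψ(w) v` -/
def rk (ψ : Dual F V) (v : V) : V →ₗ[F] V := (LinearMap.toSpanSingleton F V v) ∘ₗ ψ

theorem rk_apply (ψ : Dual F V) (v w : V) : rk ψ v w = ψ w • v := rfl

/-- a map of rank one -/
theorem exists_rk {n : V →ₗ[F] V} (h : finrank F (LinearMap.range n) = 1) :
    ∃ (v : V) (ψ : Dual F V), v ≠ 0 ∧ ψ ≠ 0 ∧ n = rk ψ v := by
  obtain ⟨⟨v, hv⟩, hv0, hv1⟩ := finrank_eq_one_iff'.1 h
  have hv0' : v ≠ 0 := fun h => hv0 (Subtype.ext h)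
  have hex : ∀ w, ∃ c : F, c • v = n w := fun w => by
    obtain ⟨c, hc⟩ := hv1 ⟨n w, ⟨w, rfl⟩⟩
    exact ⟨c, congrArg Subtype.val hc⟩
  choose ψ hψ using hex
  have hinj : ∀ c d : F, c • v = d • v → c = d := fun c d h => by
    by_contra hne
    have h2 : (c - d) • v = 0 := by rw [sub_smul, h, sub_self]
    rcases smul_eq_zero.1 h2 with h3 | h3
    · exact hne (sub_eq_zero.1 h3)
    · exact hv0' h3
  let ψ' : Dual F V :=
    { toFun := ψ
      map_add' := fun x y => hinj _ _ (by rw [hψ, add_smul, hψ, hψ, map_add])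
      map_smul' := fun c x => hinj _ _ (by rw [hψ, RingHom.id_apply, smul_assoc, hψ, map_smul]) }
  refine ⟨v, ψ', hv0', ?_, ?_⟩
  · intro h0
    have h2 : n = 0 := by
      ext w
      rw [← hψ w]
      have : ψ w = 0 := LinearMap.congr_fun h0 w
      rw [this, zero_smul, LinearMap.zero_apply]
    rw [h2, LinearMap.range_zero, finrank_bot] at h
    exact zero_ne_one h
  · ext w
    exact (hψ w).symm

theorem range_rk {ψ : Dual F V} (hψ : ψ ≠ 0) (v : V) : LinearMap.range (rk ψ v) = Submodule.span F {v} := by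
  apply le_antisymm
  · rintro _ ⟨w, rfl⟩
    exact Submodule.smul_mem _ _ (Submodule.mem_span_singleton_self v)
  · rw [Submodule.span_singleton_le_iff_mem]
    obtain ⟨w, hw⟩ := LinearMap.surjective hψ 1
    exact ⟨w, by rw [rk_apply, hw, one_smul]⟩

theorem finrank_range_rk {ψ : Dual F V} (hψ : ψ ≠ 0) {v : V} (hv : v ≠ 0) : finrank F (LinearMap.range (rk ψ v)) = 1 := by
  rw [range_rk hψ, finrank_span_singleton hv]

theorem rk_mul_rk (ψ ψ' : Dual F V) (v v' : V) : rk ψ v * rk ψ' v' = ψ v' • rk ψ' v := by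
  ext w
  rw [Module.End.mul_apply, rk_apply, rk_apply, map_smul, LinearMap.smul_apply, rk_apply, smul_eq_mul, mul_comm, mul_smul]

/-- the number of transvections -/
theorem card_rank_one_le : Nat.card {n : V →ₗ[F] V // n * n = 0 ∧ finrank F (LinearMap.range n) = 1} * (Nat.card F - 1) ≤
    (Nat.card F ^ finrank F V - 1) * (Nat.card F ^ (finrank F V - 1) - 1) := by
  classical
  have hVfin : Finite V := Module.finite_of_finite F
  have hfin : Finite (V →ₗ[F] V) := Finite.of_injective (fun g : V →ₗ[F] V => (g : V → V)) DFunLike.coe_injective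
  have hfinD : Finite (Dual F V) := Finite.of_injective (fun g : Dual F V => (g : V → F)) DFunLike.coe_injective
  have hex : ∀ n : {n : V →ₗ[F] V // n * n = 0 ∧ finrank F (LinearMap.range n) = 1},
      ∃ c : V × Dual F V, c.1 ≠ 0 ∧ c.2 ≠ 0 ∧ c.2 c.1 = 0 ∧ n.1 = rk c.2 c.1 := by
    rintro ⟨n, hn, hr⟩
    obtain ⟨v, ψ, hv, hψ, rfl⟩ := exists_rk hr
    refine ⟨(v, ψ), hv, hψ, ?_, rfl⟩
    rw [rk_mul_rk] at hn
    obtain ⟨w, hw⟩ := LinearMap.surjective hψ 1
    have h1 := LinearMap.congr_fun hn w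
    rw [LinearMap.smul_apply, rk_apply, hw, one_smul, LinearMap.zero_apply] at h1
    exact (smul_eq_zero.1 h1).resolve_right hv
  choose c hc1 hc2 hc3 hc4 using hex
  have hcard : Nat.card {x : V × Dual F V // (x.1 ≠ 0 ∧ x.2 ≠ 0) ∧ x.2 x.1 = 0} ≤
      (Nat.card F ^ finrank F V - 1) * (Nat.card F ^ (finrank F V - 1) - 1) := by
    have h1 := card_le_of_fiber (fun x : {x : V × Dual F V // (x.1 ≠ 0 ∧ x.2 ≠ 0) ∧ x.2 x.1 = 0} =>
      (⟨x.1.1, x.2.1.1⟩ : {v : V // v ≠ 0})) (Nat.card F ^ (finrank F V - 1) - 1) ?_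
    · have h2 : Nat.card {v : V // v ≠ 0} = Nat.card F ^ finrank F V - 1 := by
        have := Fintype.ofFinite V
        rw [← Module.natCard_eq_pow_finrank (K := F) (V := V), Nat.card_eq_fintype_card, Nat.card_eq_fintype_card,
          Fintype.card_subtype_compl, Fintype.card_subtype_eq]
      rw [h2, mul_comm] at h1
      exact h1
    · rintro ⟨v, hv⟩
      have h2 : Nat.card {ψ : {ψ : Dual F V // ψ v = 0} // ψ ≠ ⟨0, rfl⟩} = Nat.card F ^ (finrank F V - 1) - 1 := by
        have := Fintype.ofFinite {ψ : Dual F V // ψ v = 0}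
        rw [← card_dual_ann v hv, Nat.card_eq_fintype_card, Nat.card_eq_fintype_card,
          Fintype.card_subtype_compl, Fintype.card_subtype_eq]
      rw [← h2]
      refine Nat.card_le_card_of_injective (fun x => ⟨⟨x.1.1.2, ?_⟩, ?_⟩) ?_
      · have h3 : x.1.1.1 = v := congrArg Subtype.val x.2
        exact (congrArg x.1.1.2 h3.symm).trans x.1.2.2
      · intro h4
        exact x.1.2.1.2 (congrArg Subtype.val h4)
      · intro x y hxy
        have h3 : x.1.1.1 = v := congrArg Subtype.val x.2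
        have h4 : y.1.1.1 = v := congrArg Subtype.val y.2
        have h5 : x.1.1.2 = y.1.1.2 := congrArg (fun z => (z.1.1 : Dual F V)) hxy
        exact Subtype.ext (Subtype.ext (Prod.ext (h3.trans h4.symm) h5))
  refine le_trans ?_ hcard
  have h1 : Nat.card Fˣ = Nat.card F - 1 := Nat.card_units F
  rw [← h1, ← Nat.card_prod]
  refine Nat.card_le_card_of_injective (fun x => ⟨((x.2 : F) • (c x.1).1, (x.2⁻¹ : Fˣ) • (c x.1).2),
    ⟨smul_ne_zero x.2.ne_zero (hc1 x.1), ?_⟩, ?_⟩) ?_
  · intro h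
    exact hc2 x.1 ((smul_eq_zero_iff_eq _).1 h)
  · show ((x.2⁻¹ : Fˣ) • (c x.1).2) ((x.2 : F) • (c x.1).1) = 0
    rw [map_smul, LinearMap.smul_apply, hc3, smul_zero, smul_zero]
  · rintro ⟨n, u⟩ ⟨n', u'⟩ h
    have h2 : (u : F) • (c n).1 = (u' : F) • (c n').1 := congrArg (fun z => z.1.1) h
    have h3 : (u⁻¹ : Fˣ) • (c n).2 = (u'⁻¹ : Fˣ) • (c n').2 := congrArg (fun z => z.1.2) h
    have h4 : ∀ (n : {n : V →ₗ[F] V // n * n = 0 ∧ finrank F (LinearMap.range n) = 1}) (u : Fˣ),
        rk ((u⁻¹ : Fˣ) • (c n).2) ((u : F) • (c n).1) = n.1 := by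
      intro n u
      rw [hc4 n]
      ext w
      rw [rk_apply, rk_apply, LinearMap.smul_apply, Units.smul_def, smul_smul, smul_eq_mul]
      congr 1
      rw [mul_comm ((u⁻¹ : Fˣ) : F), mul_assoc, Units.inv_mul, mul_one]
    have h5 : n = n' := by
      apply Subtype.ext
      rw [← h4 n u, ← h4 n' u', h2, h3]
    subst h5
    have h6 : u = u' := by
      apply Units.ext
      by_contra hne
      have h7 : ((u : F) - u') • (c n).1 = 0 := by rw [sub_smul, h2, sub_self]
      rcases smul_eq_zero.1 h7 with h8 | h8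
      · exact hne (sub_eq_zero.1 h8)
      · exact hc1 n h8
    rw [h6]

end

end Cfsg.Agent.H232.IFR
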