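import Cfsg.Agent.H232.IF.SLMain

/-!
# S5719, row SL even: the end (helper232)
-/

set_option autoImplicit false
set_option linter.unusedSectionVars false

namespace Cfsg.Agent.H232.IFR

open Module Subgroup
open Cfsg.Agent.H881.Bs (card_le_of_fiber)
open Cfsg.Agent.H847.Bs (slV)

section

variable {F V : Type} [Field F] [Finite F] [AddCommGroup V] [Module F V] [FiniteDimensional F V]

theorem finite_sl : Finite (slV F V) := by
  have hVfin : Finite V := Module.finite_of_finite F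
  have : Finite (V ≃ₗ[F] V) := Finite.of_injective (fun g : V ≃ₗ[F] V => (g : V → V)) DFunLike.coe_injective
  infer_instance

theorem relIndex_card {G : Type*} [Group G] (H K : Subgroup G) :
    H.relIndex K * Nat.card (H ⊓ K : Subgroup G) = Nat.card K := by
  have h1 := (H.subgroupOf K).index_mul_card
  have h2 : Nat.card (H.subgroupOf K) = Nat.card (H ⊓ K : Subgroup G) := by
    rw [← Subgroup.inf_subgroupOf_right, Nat.card_congr (Subgroup.subgroupOfEquivOfLe inf_le_right).toEquiv]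
  rw [h2] at h1
  exact h1

/-- **Descent.** -/
theorem step (h2 : (2 : F) = 0) {B : Subgroup (slV F V)} (hB : LF B) {a : slV F V} (ha : a ∈ B) (ha1 : a ≠ 1)
    (ha2 : a * a = 1) (hk : 2 ≤ finrank F (LinearMap.range (nn a))) :
    ∃ b ∈ B, b ≠ 1 ∧ b * b = 1 ∧ finrank F (LinearMap.range (nn b)) < finrank F (LinearMap.range (nn a)) := by
  have hfin := finite_sl (F := F) (V := V)
  set k := finrank F (LinearMap.range (nn a)) with hkdef
  set m := finrank F V with hm
  have hnsq := nn_sq h2 ha2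
  have h2k : 2 * k ≤ m := rank_sq hnsq
  have hRK : LinearMap.range (nn a) ≤ LinearMap.ker (nn a) := by
    rintro _ ⟨v, rfl⟩
    exact LinearMap.congr_fun hnsq v
  obtain ⟨W, hW, hWd⟩ := Cfsg.Agent.H951.exists_sub (LinearMap.range (nn a)) (a := 2 * k / 5 + 1) (by omega)
  have hC := Tw_comm h2 hW (a := a) le_rfl (hW.trans hRK)
  have hcard := card_Tw h2 hW
  rw [hWd, ← hkdef, ← hm] at hcard
  have h1 := hB.e2 a ha ha1 ha2 _ hC
  have h3 := (index_le h2 ha2).trans (card_nil_le (F := F) (V := V) _ (by omega))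
  rw [← hkdef, ← hm] at h3
  have hq : 1 < Nat.card F := Finite.one_lt_card
  by_contra hcon
  have hbot : B ⊓ (Tw h2 hW).range = ⊥ := by
    rw [Subgroup.eq_bot_iff_forall]
    rintro b ⟨hb, f, rfl⟩
    by_contra hb1
    apply hcon
    refine ⟨_, hb, hb1, un_mul_self h2 (tw_mul hW f.toAdd f.toAdd), ?_⟩
    have h4 : nn (Tw h2 hW f) = tw f.toAdd := nn_Tw h2 hW f
    rw [h4]
    have h5 : LinearMap.range (tw f.toAdd) ≤ W := by
      rintro _ ⟨v, rfl⟩
      exact (f.toAdd (Submodule.Quotient.mk v)).2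
    have h6 := Submodule.finrank_mono h5
    rw [hWd] at h6
    omega
  have h4 : B.relIndex (Tw h2 hW).range = Nat.card (Tw h2 hW).range := by
    have h5 := relIndex_card B (Tw h2 hW).range
    rw [hbot, Subgroup.card_bot, mul_one] at h5
    exact h5
  rw [h4, hcard, ← pow_mul] at h1
  have h5 := lt_of_lt_of_le h1 h3
  rw [Nat.pow_lt_pow_iff_right hq] at h5
  have h6 : (m - k) * (2 * k / 5 + 1) * 5 = (m - k) * ((2 * k / 5 + 1) * 5) := by ring
  have h7 : (m - k) * (2 * k + 1) ≤ (m - k) * ((2 * k / 5 + 1) * 5) := Nat.mul_le_mul_left _ (by omega)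
  have h8 : (m - k) * (2 * k + 1) = 2 * k * (m - k) + (m - k) := by ring
  omega

/-- there is a transvection -/
theorem exists_trans (h2 : (2 : F) = 0) {B : Subgroup (slV F V)} (hB : LF B) (hex : ∃ a ∈ B, a ≠ 1 ∧ a * a = 1) :
    ∃ t ∈ B, t * t = 1 ∧ finrank F (LinearMap.range (nn t)) = 1 := by
  obtain ⟨a, ha, ha1, ha2⟩ := hex
  induction hn : finrank F (LinearMap.range (nn a)) using Nat.strong_induction_on generalizing a with
  | _ n ih =>
    have h0 : n ≠ 0 := by
      rintro rfl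
      apply nn_ne ha1
      exact LinearMap.range_eq_bot.1 (Submodule.finrank_eq_zero.1 hn)
    rcases Nat.lt_or_ge n 2 with h | h
    · exact ⟨a, ha, ha2, by omega⟩
    · subst hn
      obtain ⟨b, hb, hb1, hb2, hlt⟩ := step h2 hB ha ha1 ha2 h
      exact ih _ hlt b hb hb1 hb2 rfl

/-- a transvection commuting with `t`, in general position -/
theorem exists_second (h2 : (2 : F) = 0) (h5 : 5 ≤ finrank F V) {B : Subgroup (slV F V)} (hB : LF B) {t : slV F V}
    (ht : t ∈ B) (ht1 : t ≠ 1) (ht2 : t * t = 1) {φ : Dual F V} {p : V} (hφ : φ ≠ 0) (hp : p ≠ 0) (hφp : φ p = 0)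
    (htn : nn t = rk φ p) :
    ∃ (s : slV F V) (ψ : Dual F V) (p' : V), s ∈ B ∧ nn s = rk ψ p' ∧ LinearIndependent F ![p, p'] ∧
      ψ ∉ Submodule.span F {φ} ∧ φ p' = 0 ∧ ψ p = 0 ∧ ψ p' = 0 := by
  have hfin := finite_sl (F := F) (V := V)
  set m := finrank F V with hm
  have hq : 1 < Nat.card F := Finite.one_lt_card
  -- `p'`
  have hker : finrank F (LinearMap.ker φ) + 1 = m := by
    have h1 := LinearMap.finrank_range_add_finrank_ker φ
    rw [LinearMap.range_eq_top.2 (LinearMap.surjective hφ), finrank_top, finrank_self] at h1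
    omega
  obtain ⟨p', hp'1, hp'2⟩ : ∃ p' ∈ LinearMap.ker φ, p' ∉ Submodule.span F {p} := by
    by_contra hcon
    push Not at hcon
    have h6 : LinearMap.ker φ ≤ Submodule.span F {p} := hcon
    have h7 := Submodule.finrank_mono h6
    rw [finrank_span_singleton hp] at h7
    omega
  have hli : LinearIndependent F ![p, p'] := by
    rw [LinearIndependent.pair_iff' hp]
    intro a ha
    exact hp'2 (Submodule.mem_span_singleton.2 ⟨a, ha⟩)
  set R := Submodule.span F (Set.range ![p, p']) with hR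
  have hpR : p ∈ R := Submodule.subset_span ⟨0, rfl⟩
  have hp'R : p' ∈ R := Submodule.subset_span ⟨1, rfl⟩
  have hp'0 : p' ≠ 0 := by
    rintro rfl
    exact hp'2 (Submodule.zero_mem _)
  set W := Submodule.span F {p'} with hW
  have hWR : W ≤ R := by
    rw [hW, Submodule.span_singleton_le_iff_mem]
    exact hp'R
  have hRd : finrank F R = 2 := by rw [hR, finrank_span_eq_card hli, Fintype.card_fin]
  have hWd : finrank F W = 1 := by rw [hW, finrank_span_singleton hp'0]
  have hC : (Tw h2 hWR).range ≤ centralizer ({t} : Set (slV F V)) := by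
    apply Tw_comm h2 hWR
    · rw [htn, range_rk hφ, Submodule.span_singleton_le_iff_mem]
      exact hpR
    · rw [hW, Submodule.span_singleton_le_iff_mem, LinearMap.mem_ker, htn, rk_apply]
      rw [LinearMap.mem_ker] at hp'1
      rw [hp'1, zero_smul]
  have hcard := card_Tw h2 hWR
  rw [hRd, hWd, mul_one, ← hm] at hcard
  have h1 := hB.e2 t ht ht1 ht2 _ hC
  have hr1 : finrank F (LinearMap.range (nn t)) = 1 := by rw [htn, finrank_range_rk hφ hp]
  have h3 := (index_le h2 ht2).trans (card_nil_le (F := F) (V := V) _ (by omega))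
  rw [hr1, ← hm] at h3
  have h4 : B.relIndex (Tw h2 hWR).range < Nat.card F ^ (m - 3) := by
    by_contra hge
    push Not at hge
    have h5 := Nat.pow_le_pow_left hge 5
    rw [← pow_mul] at h5
    have h6 := lt_of_le_of_lt h5 (lt_of_lt_of_le h1 h3)
    rw [Nat.pow_lt_pow_iff_right hq] at h6
    omega
  have h6 := relIndex_card B (Tw h2 hWR).range
  rw [hcard] at h6
  -- more than `q` elements
  have h7 : Nat.card F < Nat.card (B ⊓ (Tw h2 hWR).range : Subgroup (slV F V)) := by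
    by_contra hge
    push Not at hge
    have h8 : B.relIndex (Tw h2 hWR).range * Nat.card (B ⊓ (Tw h2 hWR).range : Subgroup (slV F V)) <
        Nat.card F ^ (m - 3) * Nat.card F := by
      calc _ ≤ B.relIndex (Tw h2 hWR).range * Nat.card F := Nat.mul_le_mul_left _ hge
        _ < _ := Nat.mul_lt_mul_of_pos_right h4 (by omega)
    rw [h6, ← pow_succ] at h8
    have h9 : m - 3 + 1 = m - 2 := by omega
    rw [h9] at h8
    exact lt_irrefl _ h8
  -- the functional of an element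
  have hfun : ∀ f : (V ⧸ R) →ₗ[F] W, ∃ ψ : Dual F V, tw f = rk ψ p' ∧ ∀ x ∈ R, ψ x = 0 := by
    intro f
    have hex : ∀ v : V, ∃ c : F, c • p' = tw f v := fun v =>
      Submodule.mem_span_singleton.1 (f (Submodule.Quotient.mk v)).2
    choose ψ hψ using hex
    have hinj : ∀ c d : F, c • p' = d • p' → c = d := fun c d h => by
      by_contra hne
      have h10 : (c - d) • p' = 0 := by rw [sub_smul, h, sub_self]
      rcases smul_eq_zero.1 h10 with h11 | h11
      · exact hne (sub_eq_zero.1 h11)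
      · exact hp'0 h11
    refine ⟨
      { toFun := ψ
        map_add' := fun x y => hinj _ _ (by rw [hψ, add_smul, hψ, hψ, map_add])
        map_smul' := fun c x => hinj _ _ (by rw [hψ, RingHom.id_apply, smul_assoc, hψ, map_smul]) }, ?_, fun x hx => ?_⟩
    · ext v
      exact (hψ v).symm
    · apply hinj
      show ψ x • p' = (0 : F) • p'
      rw [hψ, tw_apply, zero_smul]
      have h10 : (Submodule.Quotient.mk x : V ⧸ R) = 0 := by
        rw [Submodule.Quotient.mk_eq_zero]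
        exact hx
      rw [h10, map_zero]
      rfl
  by_contra hcon
  push Not at hcon
  -- then all functionals are multiples of `φ`
  have hall : ∀ x : (B ⊓ (Tw h2 hWR).range : Subgroup (slV F V)), ∃ c : F, nn (x : slV F V) = rk (c • φ) p' := by
    rintro ⟨x, hxB, f, rfl⟩
    obtain ⟨ψ, hψ1, hψ2⟩ := hfun f.toAdd
    have h10 : nn (Tw h2 hWR f) = rk ψ p' := (nn_Tw h2 hWR f).trans hψ1
    have h11 : ψ ∈ Submodule.span F {φ} := by
      by_contra hψ
      exact hcon _ ψ p' hxB h10 hli hψ hp'1 (hψ2 p hpR) (hψ2 p' hp'R)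
    obtain ⟨c, hc⟩ := Submodule.mem_span_singleton.1 h11
    exact ⟨c, by rw [hc]; exact h10⟩
  choose c hc using hall
  have h8 := Nat.card_le_card_of_injective c (by
    intro x y hxy
    apply Subtype.ext
    apply nn_inj
    rw [hc x, hc y, hxy])
  omega

/-- the number of conjugates of `s` under the centraliser of `t` -/
theorem card_conj_ge (h2 : (2 : F) = 0) (h5 : 5 ≤ finrank F V) {s t : slV F V} {φ ψ : Dual F V} {p p' : V}
    (hφ : φ ≠ 0) (hφp : φ p = 0) (htn : nn t = rk φ p) (hsn : nn s = rk ψ p') (hli : LinearIndependent F ![p, p'])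
    (hψφ : ψ ∉ Submodule.span F {φ}) (hφp' : φ p' = 0) (hψp : ψ p = 0) (hψp' : ψ p' = 0) :
    (Nat.card F ^ (finrank F V - 1) - Nat.card F) * (Nat.card F ^ (finrank F V - 2) - Nat.card F) ≤
      (Nat.card F - 1) * (centralizer ({s} : Set (slV F V))).relIndex (centralizer ({t} : Set (slV F V))) := by
  classical
  have hfin := finite_sl (F := F) (V := V)
  have hVfin : Finite V := Module.finite_of_finite F
  have hfinD : Finite (Dual F V) := Finite.of_injective (fun g : Dual F V => (g : V → F)) DFunLike.coe_injective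
  have hp : p ≠ 0 := by
    have := hli.ne_zero 0
    exact this
  rw [relIndex_centralizer]
  -- the pairs
  let Y := {c : V × Dual F V // (φ c.1 = 0 ∧ c.1 ∉ Submodule.span F {p}) ∧ (c.2 p = 0 ∧ c.2 c.1 = 0) ∧
    c.2 ∉ Submodule.span F {φ}}
  have hliw : ∀ w : V, w ∉ Submodule.span F {p} → LinearIndependent F ![p, w] := by
    intro w hw
    rw [LinearIndependent.pair_iff' hp]
    intro a ha
    exact hw (Submodule.mem_span_singleton.2 ⟨a, ha⟩)
  have hspanφ : Nat.card (Submodule.span F {φ} : Submodule F (Dual F V)) = Nat.card F := by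
    rw [Module.natCard_eq_pow_finrank (K := F), finrank_span_singleton hφ, pow_one]
  have hspanp : Nat.card (Submodule.span F {p} : Submodule F V) = Nat.card F := by
    rw [Module.natCard_eq_pow_finrank (K := F), finrank_span_singleton hp, pow_one]
  have hY : (Nat.card F ^ (finrank F V - 1) - Nat.card F) * (Nat.card F ^ (finrank F V - 2) - Nat.card F) = Nat.card Y := by
    have h1 : Nat.card Y = Nat.card (Σ w : {w : V // φ w = 0 ∧ w ∉ Submodule.span F {p}},
        {ψ' : Dual F V // (ψ' p = 0 ∧ ψ' w = 0) ∧ ψ' ∉ Submodule.span F {φ}}) :=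
      Nat.card_congr
        { toFun := fun c => ⟨⟨c.1.1, c.2.1⟩, c.1.2, c.2.2⟩
          invFun := fun c => ⟨(c.1.1, c.2.1), c.1.2, c.2.2⟩
          left_inv := fun c => rfl
          right_inv := fun c => rfl }
    have h3 : ∀ w : {w : V // φ w = 0 ∧ w ∉ Submodule.span F {p}},
        Nat.card {ψ' : Dual F V // (ψ' p = 0 ∧ ψ' w = 0) ∧ ψ' ∉ Submodule.span F {φ}} =
          Nat.card F ^ (finrank F V - 2) - Nat.card F := by
      rintro ⟨w, hw1, hw2⟩
      rw [← card_dual_ann_two (hliw w hw2), ← hspanφ]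
      have h4 : {ψ' : Dual F V | (ψ' p = 0 ∧ ψ' w = 0) ∧ ψ' ∉ Submodule.span F {φ}} =
          {ψ' : Dual F V | ψ' p = 0 ∧ ψ' w = 0} \ (Submodule.span F {φ} : Set (Dual F V)) := rfl
      have h6 : (Submodule.span F {φ} : Set (Dual F V)) ⊆ {ψ' : Dual F V | ψ' p = 0 ∧ ψ' w = 0} := by
        intro x hx
        obtain ⟨c, rfl⟩ := Submodule.mem_span_singleton.1 hx
        refine ⟨?_, ?_⟩
        · rw [LinearMap.smul_apply, hφp, smul_zero]
        · rw [LinearMap.smul_apply, hw1, smul_zero]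
      have h7 := Set.ncard_sdiff h6 (Set.toFinite _)
      rw [← h4] at h7
      exact h7
    have h4 : Nat.card {w : V // φ w = 0 ∧ w ∉ Submodule.span F {p}} = Nat.card F ^ (finrank F V - 1) - Nat.card F := by
      have h6 : Nat.card {w : V // φ w = 0} = Nat.card F ^ (finrank F V - 1) := by
        have h7 : Nat.card {w : V // φ w = 0} = Nat.card (LinearMap.ker φ) :=
          Nat.card_congr (Equiv.subtypeEquivRight fun w => Iff.rfl)
        rw [h7, Module.natCard_eq_pow_finrank (K := F)]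
        congr 1
        have h8 := LinearMap.finrank_range_add_finrank_ker φ
        rw [LinearMap.range_eq_top.2 (LinearMap.surjective hφ), finrank_top, finrank_self] at h8
        omega
      rw [← h6, ← hspanp]
      have h7 : {w : V | φ w = 0 ∧ w ∉ Submodule.span F {p}} =
          {w : V | φ w = 0} \ (Submodule.span F {p} : Set V) := rfl
      have h8 : (Submodule.span F {p} : Set V) ⊆ {w : V | φ w = 0} := by
        intro x hx
        obtain ⟨c, rfl⟩ := Submodule.mem_span_singleton.1 hx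
        show φ (c • p) = 0
        rw [map_smul, hφp, smul_zero]
      have h9 := Set.ncard_sdiff h8 (Set.toFinite _)
      rw [← h7] at h9
      exact h9
    have := Fintype.ofFinite {w : V // φ w = 0 ∧ w ∉ Submodule.span F {p}}
    rw [h1, Nat.card_sigma, Finset.sum_congr rfl (fun w _ => h3 w), Finset.sum_const, Finset.card_univ,
      smul_eq_mul, ← Nat.card_eq_fintype_card, h4]
  rw [hY]
  -- the map to the conjugates
  have hsq : ∀ c : Y, rk c.1.2 c.1.1 * rk c.1.2 c.1.1 = 0 := by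
    intro c
    rw [rk_mul_rk, c.2.2.1.2, zero_smul]
  have hconj : ∀ c : Y, ∃ g ∈ centralizer ({t} : Set (slV F V)), un h2 (rk c.1.2 c.1.1) (hsq c) = g * s * g⁻¹ := by
    rintro ⟨⟨w, ψ'⟩, ⟨hw1, hw2⟩, ⟨h3, h4⟩, h6⟩
    obtain ⟨g, hdet, hg1, hg2, hg3, hg4⟩ := exists_sl_pair h5 hφ hψφ h6 hli (hliw w hw2) hφp hψp h3 hφp' hψp' hw1 h4
    refine ⟨⟨g, hdet⟩, ?_, ?_⟩
    · rw [mem_centralizer_singleton_iff]
      apply Subtype.ext
      ext v
      have hav : ∀ v, (t : V ≃ₗ[F] V) v = v + φ v • p := fun v => by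
        have h7 := LinearMap.congr_fun htn v
        rw [nn_apply, rk_apply] at h7
        rw [← h7]
        abel
      show g ((t : V ≃ₗ[F] V) v) = (t : V ≃ₗ[F] V) (g v)
      rw [hav, hav, map_add, map_smul, hg1, hg3]
    · apply nn_inj
      rw [nn_un, nn_conj, hsn]
      ext v
      have h7 : g ((((⟨g, hdet⟩ : slV F V)⁻¹ : slV F V) : V ≃ₗ[F] V) v) = v := g.apply_symm_apply v
      show ψ' v • w = g (ψ ((((⟨g, hdet⟩ : slV F V)⁻¹ : slV F V) : V ≃ₗ[F] V) v) • p')
      rw [map_smul, hg2, ← hg4, h7]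
  have h1 := card_le_of_fiber (fun c : Y => (⟨un h2 (rk c.1.2 c.1.1) (hsq c), hconj c⟩ :
    {x : slV F V // ∃ g ∈ centralizer ({t} : Set (slV F V)), x = g * s * g⁻¹})) (Nat.card F - 1) ?_
  · exact h1
  · intro b
    by_cases hb : ∃ c₀ : Y, (⟨un h2 (rk c₀.1.2 c₀.1.1) (hsq c₀), hconj c₀⟩ :
        {x : slV F V // ∃ g ∈ centralizer ({t} : Set (slV F V)), x = g * s * g⁻¹}) = b
    · obtain ⟨c₀, rfl⟩ := hb
      rw [← Nat.card_units F]
      have hc : ∀ c : {c : Y // (⟨un h2 (rk c.1.2 c.1.1) (hsq c), hconj c⟩ :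
          {x : slV F V // ∃ g ∈ centralizer ({t} : Set (slV F V)), x = g * s * g⁻¹}) =
          ⟨un h2 (rk c₀.1.2 c₀.1.1) (hsq c₀), hconj c₀⟩},
          ∃ a : Fˣ, c.1.1.1 = (a : F) • c₀.1.1 ∧ c.1.1.2 = ((a⁻¹ : Fˣ) : F) • c₀.1.2 := by
        rintro ⟨c, hc⟩
        have h3 : rk c.1.2 c.1.1 = rk c₀.1.2 c₀.1.1 := by
          have h4 := congrArg (fun x : {x : slV F V // ∃ g ∈ centralizer ({t} : Set (slV F V)), x = g * s * g⁻¹} => nn x.1) hc
          simp only [nn_un] at h4
          exact h4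
        have hw0 : c.1.1 ≠ 0 := fun h => c.2.1.2 (by rw [h]; exact Submodule.zero_mem _)
        have hw00 : c₀.1.1 ≠ 0 := fun h => c₀.2.1.2 (by rw [h]; exact Submodule.zero_mem _)
        have hψ0 : c₀.1.2 ≠ 0 := fun h => c₀.2.2.2 (by rw [h]; exact Submodule.zero_mem _)
        obtain ⟨y, hy⟩ := LinearMap.surjective (f := c.1.2) (fun h => c.2.2.2 (by rw [h]; exact Submodule.zero_mem _)) 1
        have h4 := LinearMap.congr_fun h3 y
        rw [rk_apply, rk_apply, hy, one_smul] at h4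
        have ha0 : c₀.1.2 y ≠ 0 := by
          intro h
          rw [h, zero_smul] at h4
          exact hw0 h4
        refine ⟨Units.mk0 _ ha0, h4, ?_⟩
        ext v
        have h6 := LinearMap.congr_fun h3 v
        rw [rk_apply, rk_apply, h4, smul_smul] at h6
        have h7 : (c.1.2 v * c₀.1.2 y - c₀.1.2 v) • c₀.1.1 = 0 := by rw [sub_smul, h6, sub_self]
        have h8 : c.1.2 v * c₀.1.2 y = c₀.1.2 v := sub_eq_zero.1 ((smul_eq_zero.1 h7).resolve_right hw00)
        rw [LinearMap.smul_apply, Units.val_inv_eq_inv_val, Units.val_mk0, smul_eq_mul, ← h8]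
        field_simp
      choose a ha1 ha2 using hc
      refine Nat.card_le_card_of_injective a ?_
      intro x y hxy
      apply Subtype.ext
      apply Subtype.ext
      refine Prod.ext ?_ ?_
      · rw [ha1 x, ha1 y, hxy]
      · rw [ha2 x, ha2 y, hxy]
    · have h3 : IsEmpty {c : Y // (⟨un h2 (rk c.1.2 c.1.1) (hsq c), hconj c⟩ :
          {x : slV F V // ∃ g ∈ centralizer ({t} : Set (slV F V)), x = g * s * g⁻¹}) = b} :=
        ⟨fun c => hb ⟨c.1, c.2⟩⟩
      rw [Nat.card_of_isEmpty]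
      exact Nat.zero_le _

/-- the numbers -/
theorem num_end {q m n c I : ℕ} (hq : 2 ≤ q) (hm : 5 ≤ m) (hn : q ^ (m - 1) ≤ n)
    (hc : (q ^ (m - 1) - q) * (q ^ (m - 2) - q) ≤ (q - 1) * c) (hI : I * (q - 1) ≤ (q ^ m - 1) * (q ^ (m - 1) - 1))
    (h : n ^ 2 * c ^ 3 < I ^ 3) : False := by
  obtain ⟨k, rfl⟩ : ∃ k, m = k + 5 := ⟨m - 5, by omega⟩
  have e1 : k + 5 - 1 = k + 4 := by omega
  have e2 : k + 5 - 2 = k + 3 := by omega
  rw [e1] at hn hc hI
  rw [e2] at hc
  -- `X = q ^ (k + 3) - 1`, `Y = q ^ (k + 2) - 1`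
  obtain ⟨X, hX⟩ : ∃ X, q ^ (k + 3) = X + 1 := ⟨q ^ (k + 3) - 1, by
    have : 0 < q ^ (k + 3) := by positivity
    omega⟩
  obtain ⟨Y, hY⟩ : ∃ Y, q ^ (k + 2) = Y + 1 := ⟨q ^ (k + 2) - 1, by
    have : 0 < q ^ (k + 2) := by positivity
    omega⟩
  have h1 : q ^ (k + 4) - q = q * X := by
    have : q ^ (k + 4) = q * q ^ (k + 3) := by ring
    rw [this, hX, Nat.mul_add, mul_one, Nat.add_sub_cancel]
  have h2 : q ^ (k + 3) - q = q * Y := by
    have : q ^ (k + 3) = q * q ^ (k + 2) := by ring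
    rw [this, hY, Nat.mul_add, mul_one, Nat.add_sub_cancel]
  rw [h1, h2] at hc
  have hXq : q ^ 2 ≤ X + 1 := by rw [← hX]; exact Nat.pow_le_pow_right (by omega) (by omega)
  have hYq : q ^ 2 ≤ Y + 1 := by rw [← hY]; exact Nat.pow_le_pow_right (by omega) (by omega)
  have h3 : q ^ (k + 5) - 1 ≤ (q ^ 2 + 1) * X := by
    have h4 : q ^ (k + 5) = q ^ 2 * (X + 1) := by rw [← hX]; ring
    rw [h4]
    have : q ^ 2 * (X + 1) ≤ (q ^ 2 + 1) * X + 1 := by nlinarith
    omega
  have h4 : q ^ (k + 4) - 1 ≤ (q ^ 2 + 1) * Y := by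
    have h5 : q ^ (k + 4) = q ^ 2 * (Y + 1) := by rw [← hY]; ring
    rw [h5]
    have : q ^ 2 * (Y + 1) ≤ (q ^ 2 + 1) * Y + 1 := by nlinarith
    omega
  have h5 : I * (q - 1) ≤ (q ^ 2 + 1) ^ 2 * (X * Y) := by
    calc I * (q - 1) ≤ (q ^ (k + 5) - 1) * (q ^ (k + 4) - 1) := hI
      _ ≤ ((q ^ 2 + 1) * X) * ((q ^ 2 + 1) * Y) := Nat.mul_le_mul h3 h4
      _ = _ := by ring
  have h6 : (q ^ (k + 4)) ^ 2 * (q * X * (q * Y)) ^ 3 ≤ n ^ 2 * ((q - 1) * c) ^ 3 :=
    Nat.mul_le_mul (Nat.pow_le_pow_left hn 2) (Nat.pow_le_pow_left hc 3)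
  have h7 : n ^ 2 * ((q - 1) * c) ^ 3 < (I * (q - 1)) ^ 3 := by
    have h8 : 0 < (q - 1) ^ 3 := by
      have : 0 < q - 1 := by omega
      positivity
    calc n ^ 2 * ((q - 1) * c) ^ 3 = (n ^ 2 * c ^ 3) * (q - 1) ^ 3 := by ring
      _ < I ^ 3 * (q - 1) ^ 3 := Nat.mul_lt_mul_of_pos_right h h8
      _ = _ := by ring
  have h8 : (I * (q - 1)) ^ 3 ≤ ((q ^ 2 + 1) ^ 2 * (X * Y)) ^ 3 := Nat.pow_le_pow_left h5 3
  have h9 : (q ^ 2 + 1) ^ 3 ≤ q ^ 7 := by
    have h10 : q ^ 7 = q * q ^ 6 := by ring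
    have h11 : (q ^ 2 + 1) ^ 3 = q ^ 6 + 3 * q ^ 4 + 3 * q ^ 2 + 1 := by ring
    rw [h10, h11]
    rcases Nat.eq_or_lt_of_le hq with h12 | h12
    · rw [← h12]; norm_num
    · have h13 : 3 ≤ q := h12
      have h14 : 3 * q ^ 6 ≤ q * q ^ 6 := Nat.mul_le_mul_right _ h13
      have h15 : q ^ 6 = q ^ 2 * q ^ 4 := by ring
      have h16 : 9 ≤ q ^ 2 := by nlinarith
      have h17 : 9 * q ^ 4 ≤ q ^ 2 * q ^ 4 := Nat.mul_le_mul_right _ h16
      have h18 : q ^ 4 = q ^ 2 * q ^ 2 := by ring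
      have h19 : 9 * q ^ 2 ≤ q ^ 2 * q ^ 2 := Nat.mul_le_mul_right _ h16
      omega
  have h10 : ((q ^ 2 + 1) ^ 2 * (X * Y)) ^ 3 ≤ (q ^ (k + 4)) ^ 2 * (q * X * (q * Y)) ^ 3 := by
    calc ((q ^ 2 + 1) ^ 2 * (X * Y)) ^ 3 = ((q ^ 2 + 1) ^ 3) ^ 2 * (X * Y) ^ 3 := by ring
      _ ≤ (q ^ 7) ^ 2 * (X * Y) ^ 3 := Nat.mul_le_mul_right _ (Nat.pow_le_pow_left h9 2)
      _ = q ^ 8 * (q ^ 6 * (X * Y) ^ 3) := by ring
      _ ≤ (q ^ (k + 4)) ^ 2 * (q ^ 6 * (X * Y) ^ 3) := by
          apply Nat.mul_le_mul_right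
          rw [← pow_mul]
          exact Nat.pow_le_pow_right (by omega) (by omega)
      _ = _ := by ring
  exact absurd (lt_of_le_of_lt h6 h7) (not_lt.2 (h8.trans h10))

/-- **The end.** -/
theorem no_LF (h2 : (2 : F) = 0) (h5 : 5 ≤ finrank F V) {B : Subgroup (slV F V)} (hB : LF B)
    (hex : ∃ a ∈ B, a ≠ 1 ∧ a * a = 1) (hidx : Nat.card F ^ (finrank F V - 1) ≤ B.index) : False := by
  have hfin := finite_sl (F := F) (V := V)
  obtain ⟨t, ht, ht2, ht3⟩ := exists_trans h2 hB hex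
  obtain ⟨p, φ, hp, hφ, htn⟩ := exists_rk ht3
  have hsq := nn_sq h2 ht2
  have hφp : φ p = 0 := by
    rw [htn, rk_mul_rk] at hsq
    obtain ⟨w, hw⟩ := LinearMap.surjective hφ 1
    have h1 := LinearMap.congr_fun hsq w
    rw [LinearMap.smul_apply, rk_apply, hw, one_smul, LinearMap.zero_apply] at h1
    exact (smul_eq_zero.1 h1).resolve_right hp
  have ht1 : t ≠ 1 := by
    rintro rfl
    have h1 : nn (1 : slV F V) = 0 := by
      ext v
      rw [nn_apply]
      exact sub_self v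
    rw [h1, LinearMap.range_zero, finrank_bot] at ht3
    exact zero_ne_one ht3
  obtain ⟨s, ψ, p', hs, hsn, hli, hψφ, hφp', hψp, hψp'⟩ := exists_second h2 h5 hB ht ht1 ht2 hφ hp hφp htn
  have hp'0 : p' ≠ 0 := hli.ne_zero 1
  have hψ0 : ψ ≠ 0 := fun h => hψφ (by rw [h]; exact Submodule.zero_mem _)
  have hav : ∀ v, (t : V ≃ₗ[F] V) v = v + φ v • p := fun v => by
    have h7 := LinearMap.congr_fun htn v
    rw [nn_apply, rk_apply] at h7
    rw [← h7]
    abel
  have hsv : ∀ v, (s : V ≃ₗ[F] V) v = v + ψ v • p' := fun v => by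
    have h7 := LinearMap.congr_fun hsn v
    rw [nn_apply, rk_apply] at h7
    rw [← h7]
    abel
  have hs2 : s * s = 1 := by
    apply Subtype.ext
    ext v
    show (s : V ≃ₗ[F] V) ((s : V ≃ₗ[F] V) v) = v
    rw [hsv, hsv, map_add, map_smul, hψp', smul_zero, add_zero, add_assoc, ← two_smul F, h2, zero_smul, add_zero]
  have hs1 : s ≠ 1 := by
    rintro rfl
    have h1 : nn (1 : slV F V) = 0 := by
      ext v
      rw [nn_apply]
      exact sub_self v
    rw [h1] at hsn
    obtain ⟨w, hw⟩ := LinearMap.surjective hψ0 1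
    have h7 := LinearMap.congr_fun hsn w
    rw [LinearMap.zero_apply, rk_apply, hw, one_smul] at h7
    exact hp'0 h7.symm
  have hst : s ≠ t := by
    rintro rfl
    rw [htn] at hsn
    obtain ⟨w, hw⟩ := LinearMap.surjective hφ 1
    have h7 := LinearMap.congr_fun hsn w
    rw [rk_apply, rk_apply, hw, one_smul] at h7
    rw [LinearIndependent.pair_iff' hp] at hli
    have hψw : ψ w ≠ 0 := by
      intro h
      rw [h, zero_smul] at h7
      exact hp h7
    exact hli (ψ w)⁻¹ (by rw [h7, smul_smul, inv_mul_cancel₀ hψw, one_smul])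
  have hcomm : s * t = t * s := by
    apply Subtype.ext
    ext v
    show (s : V ≃ₗ[F] V) ((t : V ≃ₗ[F] V) v) = (t : V ≃ₗ[F] V) ((s : V ≃ₗ[F] V) v)
    rw [hav, hsv, hsv, hav, map_add, map_add, map_smul, map_smul, hψp, hφp', smul_zero, smul_zero, add_zero, add_zero]
    abel
  have h1 := hB.e4 s hs t ht hs1 ht1 hs2 ht2 hst hcomm
  have h3 := card_conj_ge h2 h5 hφ hφp htn hsn hli hψφ hφp' hψp hψp'
  have hr1 : finrank F (LinearMap.range (nn s)) = 1 := by rw [hsn, finrank_range_rk hψ0 hp'0]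
  have h4 := index_le h2 hs2
  rw [hr1] at h4
  have h6 := (Nat.mul_le_mul_right (Nat.card F - 1) h4).trans (card_rank_one_le (F := F) (V := V))
  have hq : 1 < Nat.card F := Finite.one_lt_card
  exact num_end hq h5 hidx h3 h6 h1

end

end Cfsg.Agent.H232.IFR
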