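import Cfsg.Agent.H232.IF.SLTrans
import Cfsg.Agent.H232.IF.Lift
import Cfsg.Agent.H847.Bs.Defs2

/-!
# S5719, row SL even: the descent and the end (helper232)

`no_LF` : `slV F V`, `dim V ≥ 5`, characteristic two, has no subgroup `B` of even order and index at least `q ^ (m - 1)`
with the inequalities `LF`.
-/

set_option autoImplicit false
set_option linter.unusedSectionVars false

namespace Cfsg.Agent.H232.IFR

open Module Subgroup
open Cfsg.Agent.H881.Bs (card_le_of_fiber)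
open Cfsg.Agent.H847.Bs (slV)

section

/-- conjugates under `K` -/
theorem relIndex_centralizer {G : Type*} [Group G] (K : Subgroup G) (s : G) :
    (centralizer ({s} : Set G)).relIndex K = Nat.card {x : G // ∃ g ∈ K, x = g * s * g⁻¹} := by
  rw [relIndex, index]
  apply Nat.card_congr
  refine Equiv.ofBijective (Quotient.lift (fun k : K => (⟨k * s * (k : G)⁻¹, k, k.2, rfl⟩ :
    {x : G // ∃ g ∈ K, x = g * s * g⁻¹})) ?_) ⟨?_, ?_⟩
  · intro a b hab
    have h1 : a⁻¹ * b ∈ (centralizer ({s} : Set G)).subgroupOf K := QuotientGroup.leftRel_apply.1 hab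
    have h2 : (a : G)⁻¹ * b * s = s * ((a : G)⁻¹ * b) := mem_centralizer_singleton_iff.1 h1
    apply Subtype.ext
    show (a : G) * s * (a : G)⁻¹ = b * s * (b : G)⁻¹
    have h3 : (b : G) * s = a * (s * ((a : G)⁻¹ * b)) := by rw [← h2]; group
    rw [h3]; group
  · intro x y
    induction x using QuotientGroup.induction_on with
    | H a =>
      induction y using QuotientGroup.induction_on with
      | H b =>
        intro h
        have h1 : (a : G) * s * (a : G)⁻¹ = b * s * (b : G)⁻¹ := congrArg Subtype.val h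
        rw [QuotientGroup.eq]
        show (a : G)⁻¹ * b ∈ centralizer ({s} : Set G)
        rw [mem_centralizer_singleton_iff]
        have h2 : (a : G)⁻¹ * b * s = (a : G)⁻¹ * (b * s * (b : G)⁻¹) * b := by group
        rw [h2, ← h1]; group
  · rintro ⟨_, g, hg, rfl⟩
    exact ⟨QuotientGroup.mk ⟨g, hg⟩, rfl⟩

theorem index_centralizer {G : Type*} [Group G] (s : G) :
    (centralizer ({s} : Set G)).index = Nat.card {x : G // ∃ g : G, x = g * s * g⁻¹} := by
  rw [← relIndex_top_right, relIndex_centralizer]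
  exact Nat.card_congr (Equiv.subtypeEquivRight fun x => by simp)

end

section

variable {F V : Type} [Field F] [AddCommGroup V] [Module F V] [FiniteDimensional F V]

/-- `1 + n` -/
def un (h2 : (2 : F) = 0) (n : V →ₗ[F] V) (hn : n * n = 0) : slV F V :=
  ⟨LinearEquiv.ofLinearMap (LinearMap.id + n) (LinearMap.id + n) (by
      ext v
      have h3 : n (n v) = 0 := LinearMap.congr_fun hn v
      have h4 : n v + n v = 0 := by rw [← two_smul F, h2, zero_smul]
      show (v + n v) + n (v + n v) = v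
      rw [map_add, h3, add_zero, add_assoc, h4, add_zero]) (by
      ext v
      have h3 : n (n v) = 0 := LinearMap.congr_fun hn v
      have h4 : n v + n v = 0 := by rw [← two_smul F, h2, zero_smul]
      show (v + n v) + n (v + n v) = v
      rw [map_add, h3, add_zero, add_assoc, h4, add_zero]), by
    show LinearMap.det _ = 1
    set g : V →ₗ[F] V := LinearMap.id + n with hg
    have h5 : g ∘ₗ g = LinearMap.id := by
      ext v
      have h3 : n (n v) = 0 := LinearMap.congr_fun hn v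
      have h4 : n v + n v = 0 := by rw [← two_smul F, h2, zero_smul]
      show (v + n v) + n (v + n v) = v
      rw [map_add, h3, add_zero, add_assoc, h4, add_zero]
    have h6 : LinearMap.det g * LinearMap.det g = 1 := by
      rw [← LinearMap.det_comp, h5, LinearMap.det_id]
    have h7 : (LinearMap.det g - 1) * (LinearMap.det g - 1) = 0 := by
      linear_combination h6 - (LinearMap.det g - 1) * h2
    have h8 : LinearMap.det g - 1 = 0 := mul_self_eq_zero.1 h7
    exact sub_eq_zero.1 h8⟩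

theorem un_apply (h2 : (2 : F) = 0) (n : V →ₗ[F] V) (hn : n * n = 0) (v : V) :
    ((un h2 n hn : slV F V) : V ≃ₗ[F] V) v = v + n v := rfl

/-- `a - 1` -/
def nn (a : slV F V) : V →ₗ[F] V := ((a : V ≃ₗ[F] V) : V →ₗ[F] V) - LinearMap.id

theorem nn_apply (a : slV F V) (v : V) : nn a v = (a : V ≃ₗ[F] V) v - v := rfl

theorem nn_un (h2 : (2 : F) = 0) (n : V →ₗ[F] V) (hn : n * n = 0) : nn (un h2 n hn) = n := by
  ext v
  rw [nn_apply, un_apply, add_sub_cancel_left]

theorem nn_inj {a b : slV F V} (h : nn a = nn b) : a = b := by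
  apply Subtype.ext
  ext v
  have h1 := LinearMap.congr_fun h v
  rw [nn_apply, nn_apply] at h1
  exact sub_left_inj.1 h1

theorem nn_ne {a : slV F V} (h : a ≠ 1) : nn a ≠ 0 := by
  intro h0
  apply h
  apply nn_inj
  rw [h0]
  ext v
  rw [nn_apply]
  show (0 : V) = v - v
  rw [sub_self]

theorem nn_sq (h2 : (2 : F) = 0) {a : slV F V} (ha : a * a = 1) : nn a * nn a = 0 := by
  ext v
  have h1 : (a : V ≃ₗ[F] V) ((a : V ≃ₗ[F] V) v) = v := by
    have h3 := congrArg (fun x : slV F V => (x : V ≃ₗ[F] V) v) ha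
    exact h3
  rw [Module.End.mul_apply, nn_apply, nn_apply, map_sub, h1, LinearMap.zero_apply]
  have h4 : ((a : V ≃ₗ[F] V) v - v) + ((a : V ≃ₗ[F] V) v - v) = 0 := by rw [← two_smul F, h2, zero_smul]
  have h5 : v - (a : V ≃ₗ[F] V) v - ((a : V ≃ₗ[F] V) v - v) = -(((a : V ≃ₗ[F] V) v - v) + ((a : V ≃ₗ[F] V) v - v)) := by
    abel
  rw [h5, h4, neg_zero]

theorem un_mul (h2 : (2 : F) = 0) {n n' : V →ₗ[F] V} (hn : n * n = 0) (hn' : n' * n' = 0) (h : n * n' = 0)
    (hs : (n + n') * (n + n') = 0) : un h2 n hn * un h2 n' hn' = un h2 (n + n') hs := by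
  apply Subtype.ext
  ext v
  have h3 : n (n' v) = 0 := LinearMap.congr_fun h v
  show (v + n' v) + n (v + n' v) = v + (n v + n' v)
  rw [map_add, h3, add_zero]
  abel

theorem un_mul_self (h2 : (2 : F) = 0) {n : V →ₗ[F] V} (hn : n * n = 0) : un h2 n hn * un h2 n hn = 1 := by
  apply Subtype.ext
  ext v
  have h3 : n (n v) = 0 := LinearMap.congr_fun hn v
  have h4 : n v + n v = 0 := by rw [← two_smul F, h2, zero_smul]
  show (v + n v) + n (v + n v) = v
  rw [map_add, h3, add_zero, add_assoc, h4, add_zero]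

theorem un_ne (h2 : (2 : F) = 0) {n : V →ₗ[F] V} (hn : n * n = 0) (h : n ≠ 0) : un h2 n hn ≠ 1 := by
  intro h1
  apply h
  rw [← nn_un h2 n hn, h1]
  ext v
  rw [nn_apply]
  show v - v = (0 : V)
  rw [sub_self]

theorem rank_sq {n : V →ₗ[F] V} (hn : n * n = 0) : 2 * finrank F (LinearMap.range n) ≤ finrank F V := by
  have h1 := LinearMap.finrank_range_add_finrank_ker n
  have h3 : LinearMap.range n ≤ LinearMap.ker n := by
    rintro _ ⟨v, rfl⟩
    exact LinearMap.congr_fun hn v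
  have h4 := Submodule.finrank_mono h3
  omega

theorem nn_conj (g a : slV F V) : nn (g * a * g⁻¹) =
    ((g : V ≃ₗ[F] V) : V →ₗ[F] V) * nn a * (((g⁻¹ : slV F V) : V ≃ₗ[F] V) : V →ₗ[F] V) := by
  ext v
  have h1 : (g : V ≃ₗ[F] V) (((g⁻¹ : slV F V) : V ≃ₗ[F] V) v) = v := by
    have h3 := congrArg (fun x : slV F V => (x : V ≃ₗ[F] V) v) (mul_inv_cancel g)
    exact h3
  show (g : V ≃ₗ[F] V) ((a : V ≃ₗ[F] V) (((g⁻¹ : slV F V) : V ≃ₗ[F] V) v)) - v =
    (g : V ≃ₗ[F] V) ((a : V ≃ₗ[F] V) (((g⁻¹ : slV F V) : V ≃ₗ[F] V) v) - ((g⁻¹ : slV F V) : V ≃ₗ[F] V) v)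
  rw [map_sub, h1]

theorem rank_conj (g a : slV F V) : finrank F (LinearMap.range (nn (g * a * g⁻¹))) = finrank F (LinearMap.range (nn a)) := by
  rw [nn_conj]
  have h1 : LinearMap.range (((g : V ≃ₗ[F] V) : V →ₗ[F] V) * nn a * (((g⁻¹ : slV F V) : V ≃ₗ[F] V) : V →ₗ[F] V)) =
      (LinearMap.range (nn a)).map ((g : V ≃ₗ[F] V) : V →ₗ[F] V) := by
    ext x
    constructor
    · rintro ⟨v, rfl⟩
      exact ⟨_, ⟨_, rfl⟩, rfl⟩
    · rintro ⟨_, ⟨v, rfl⟩, rfl⟩
      obtain ⟨v', rfl⟩ := ((g⁻¹ : slV F V) : V ≃ₗ[F] V).surjective v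
      exact ⟨v', rfl⟩
  rw [h1]
  exact LinearEquiv.finrank_map_eq (g : V ≃ₗ[F] V) _

variable [Finite F]

/-- the size of the class -/
theorem index_le (h2 : (2 : F) = 0) {a : slV F V} (ha : a * a = 1) :
    (centralizer ({a} : Set (slV F V))).index ≤
      Nat.card {n : V →ₗ[F] V // n * n = 0 ∧ finrank F (LinearMap.range n) = finrank F (LinearMap.range (nn a))} := by
  have hVfin : Finite V := Module.finite_of_finite F
  have hfin : Finite (V →ₗ[F] V) := Finite.of_injective (fun g : V →ₗ[F] V => (g : V → V)) DFunLike.coe_injective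
  rw [index_centralizer]
  refine Nat.card_le_card_of_injective (fun x => ⟨nn x.1, ?_, ?_⟩) fun x y h => Subtype.ext (nn_inj (congrArg Subtype.val h))
  · obtain ⟨g, hg⟩ := x.2
    apply nn_sq h2
    rw [hg]
    have h3 : g * a * g⁻¹ * (g * a * g⁻¹) = g * (a * a) * g⁻¹ := by group
    rw [h3, ha, mul_one, mul_inv_cancel]
  · obtain ⟨g, hg⟩ := x.2
    rw [hg, rank_conj]

/-- the group `Hom(V/R, W)`, `W ≤ R` -/
def tw {R W : Submodule F V} (f : (V ⧸ R) →ₗ[F] W) : V →ₗ[F] V := W.subtype ∘ₗ f ∘ₗ R.mkQ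

theorem tw_apply {R W : Submodule F V} (f : (V ⧸ R) →ₗ[F] W) (v : V) :
    tw f v = (f (Submodule.Quotient.mk v) : V) := rfl

theorem tw_mul {R W : Submodule F V} (hWR : W ≤ R) (f g : (V ⧸ R) →ₗ[F] W) : tw f * tw g = 0 := by
  ext v
  rw [Module.End.mul_apply, tw_apply]
  have h1 : (Submodule.Quotient.mk (tw g v) : V ⧸ R) = 0 := by
    rw [Submodule.Quotient.mk_eq_zero]
    exact hWR (g (Submodule.Quotient.mk v)).2
  rw [h1, map_zero]
  rfl

/-- the corresponding subgroup of `SL(V)` -/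
def Tw (h2 : (2 : F) = 0) {R W : Submodule F V} (hWR : W ≤ R) : Multiplicative ((V ⧸ R) →ₗ[F] W) →* slV F V where
  toFun f := un h2 (tw f.toAdd) (tw_mul hWR _ _)
  map_one' := by
    apply nn_inj
    rw [nn_un]
    ext v
    rw [nn_apply]
    show ((0 : (V ⧸ R) →ₗ[F] W) (Submodule.Quotient.mk v) : V) = v - v
    rw [LinearMap.zero_apply, sub_self, ZeroMemClass.coe_zero]
  map_mul' f g := by
    rw [un_mul h2 (tw_mul hWR _ _) (tw_mul hWR _ _) (tw_mul hWR _ _) (tw_mul hWR (f.toAdd + g.toAdd) (f.toAdd + g.toAdd))]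
    rfl

theorem nn_Tw (h2 : (2 : F) = 0) {R W : Submodule F V} (hWR : W ≤ R) (f : Multiplicative ((V ⧸ R) →ₗ[F] W)) :
    nn (Tw h2 hWR f) = tw f.toAdd := nn_un h2 (tw f.toAdd) (tw_mul hWR f.toAdd f.toAdd)

theorem Tw_inj (h2 : (2 : F) = 0) {R W : Submodule F V} (hWR : W ≤ R) : Function.Injective (Tw h2 hWR) := by
  intro f g h
  have h1 : tw f.toAdd = tw g.toAdd := by
    rw [← nn_un h2 (tw f.toAdd) (tw_mul hWR _ _), ← nn_un h2 (tw g.toAdd) (tw_mul hWR _ _)]
    exact congrArg nn h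
  apply Multiplicative.toAdd.injective
  apply LinearMap.ext
  intro x
  obtain ⟨v, rfl⟩ := Submodule.Quotient.mk_surjective R x
  apply Subtype.ext
  have h3 := LinearMap.congr_fun h1 v
  rw [tw_apply, tw_apply] at h3
  exact h3

theorem card_Tw (h2 : (2 : F) = 0) {R W : Submodule F V} (hWR : W ≤ R) :
    Nat.card (Tw h2 hWR).range = Nat.card F ^ ((finrank F V - finrank F R) * finrank F W) := by
  have hVfin : Finite V := Module.finite_of_finite F
  have hfQ : Finite (V ⧸ R) := Finite.of_surjective _ (Submodule.mkQ_surjective R)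
  rw [← Nat.card_congr (MonoidHom.ofInjective (Tw_inj h2 hWR)).toEquiv]
  have h1 : Nat.card (Multiplicative ((V ⧸ R) →ₗ[F] W)) = Nat.card ((V ⧸ R) →ₗ[F] W) :=
    Nat.card_congr Multiplicative.toAdd
  have hfin2 : Finite ((V ⧸ R) →ₗ[F] W) :=
    Finite.of_injective (fun g : (V ⧸ R) →ₗ[F] W => (g : V ⧸ R → W)) DFunLike.coe_injective
  rw [h1, Module.natCard_eq_pow_finrank (K := F), Module.finrank_linearMap, Submodule.finrank_quotient]

/-- elements of `Tw` commute with `a` -/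
theorem Tw_comm (h2 : (2 : F) = 0) {R W : Submodule F V} (hWR : W ≤ R) {a : slV F V}
    (ha1 : LinearMap.range (nn a) ≤ R) (ha2 : W ≤ LinearMap.ker (nn a)) :
    (Tw h2 hWR).range ≤ centralizer ({a} : Set (slV F V)) := by
  rintro _ ⟨f, rfl⟩
  rw [mem_centralizer_singleton_iff]
  apply Subtype.ext
  ext v
  have hav : ∀ v, (a : V ≃ₗ[F] V) v = v + nn a v := fun v => by rw [nn_apply]; abel
  show (a : V ≃ₗ[F] V) v + tw f.toAdd ((a : V ≃ₗ[F] V) v) = (a : V ≃ₗ[F] V) (v + tw f.toAdd v)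
  rw [map_add, hav (tw f.toAdd v), hav v, map_add]
  have h3 : tw f.toAdd (nn a v) = 0 := by
    rw [tw_apply]
    have h4 : (Submodule.Quotient.mk (nn a v) : V ⧸ R) = 0 := by
      rw [Submodule.Quotient.mk_eq_zero]
      exact ha1 ⟨v, rfl⟩
    rw [h4, map_zero]
    rfl
  have h4 : nn a (tw f.toAdd v) = 0 := ha2 (f.toAdd (Submodule.Quotient.mk v)).2
  rw [h3, h4, add_zero]

end

end Cfsg.Agent.H232.IFR
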