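import Cfsg.Agent.H232.IF.SLCount
import Cfsg.Agent.H166.Cov.SLMap

/-!
# S5719, row SL even: pairs of commuting transvections (helper232)
-/

set_option autoImplicit false
set_option linter.unusedSectionVars false

namespace Cfsg.Agent.H232.IFR

open Module
open Cfsg.Agent.H881.Bs (card_le_of_fiber)

section

variable {F V : Type} [Field F] [Finite F] [AddCommGroup V] [Module F V] [FiniteDimensional F V]

/-- dual vectors -/
theorem exists_dual_pair {φ ψ : Dual F V} (hφ : φ ≠ 0) (hψ : ψ ∉ Submodule.span F {φ}) :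
    ∃ y₁ y₂ : V, φ y₁ = 1 ∧ ψ y₁ = 0 ∧ φ y₂ = 0 ∧ ψ y₂ = 1 := by
  have h1 : ∃ y, φ y = 0 ∧ ψ y ≠ 0 := by
    by_contra hcon
    push Not at hcon
    apply hψ
    have h2 := mem_span_of_iInf_ker_le_ker (L := fun _ : Unit => φ) (K := ψ) (by
      rw [ciInf_unique]
      intro y hy
      exact hcon y hy)
    rwa [Set.range_const] at h2
  obtain ⟨y, hy1, hy2⟩ := h1
  obtain ⟨z, hz⟩ := LinearMap.surjective hφ 1
  refine ⟨z - (ψ z * (ψ y)⁻¹) • y, (ψ y)⁻¹ • y, ?_, ?_, ?_, ?_⟩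
  · rw [map_sub, map_smul, hy1, smul_zero, sub_zero, hz]
  · rw [map_sub, map_smul, smul_eq_mul, mul_assoc, inv_mul_cancel₀ hy2, mul_one, sub_self]
  · rw [map_smul, hy1, smul_zero]
  · rw [map_smul, smul_eq_mul, inv_mul_cancel₀ hy2]

theorem finrank_ker_two {φ ψ : Dual F V} (hφ : φ ≠ 0) (hψ : ψ ∉ Submodule.span F {φ}) :
    finrank F (LinearMap.ker φ ⊓ LinearMap.ker ψ : Submodule F V) + 2 = finrank F V := by
  obtain ⟨y₁, y₂, h1, h2, h3, h4⟩ := exists_dual_pair hφ hψ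
  have h5 : LinearMap.range (φ.prod ψ) = ⊤ := by
    rw [LinearMap.range_eq_top]
    rintro ⟨a, b⟩
    refine ⟨a • y₁ + b • y₂, Prod.ext ?_ ?_⟩
    · show φ (a • y₁ + b • y₂) = a
      rw [map_add, map_smul, map_smul, h1, h3, smul_eq_mul, smul_eq_mul, mul_one, mul_zero, add_zero]
    · show ψ (a • y₁ + b • y₂) = b
      rw [map_add, map_smul, map_smul, h2, h4, smul_eq_mul, smul_eq_mul, mul_one, mul_zero, zero_add]
  have h6 := LinearMap.finrank_range_add_finrank_ker (φ.prod ψ)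
  rw [h5, finrank_top, Module.finrank_prod, finrank_self, LinearMap.ker_prod] at h6
  omega

/-- **Transitivity.** -/
theorem exists_sl_pair (h5 : 5 ≤ finrank F V) {φ ψ ψ' : Dual F V} {p p' w : V} (hφ : φ ≠ 0)
    (hψ : ψ ∉ Submodule.span F {φ}) (hψ' : ψ' ∉ Submodule.span F {φ}) (hp : LinearIndependent F ![p, p'])
    (hw : LinearIndependent F ![p, w]) (h1 : φ p = 0) (h2 : ψ p = 0) (h2' : ψ' p = 0) (h3 : φ p' = 0) (h4 : ψ p' = 0)
    (h3' : φ w = 0) (h4' : ψ' w = 0) :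
    ∃ g : V ≃ₗ[F] V, LinearMap.det (g : V →ₗ[F] V) = 1 ∧ g p = p ∧ g p' = w ∧ (∀ v, φ (g v) = φ v) ∧ ∀ v, ψ' (g v) = ψ v := by
  obtain ⟨y₁, y₂, hy1, hy2, hy3, hy4⟩ := exists_dual_pair hφ hψ
  obtain ⟨z₁, z₂, hz1, hz2, hz3, hz4⟩ := exists_dual_pair hφ hψ'
  set D : Submodule F V := LinearMap.ker φ ⊓ LinearMap.ker ψ with hD
  set D' : Submodule F V := LinearMap.ker φ ⊓ LinearMap.ker ψ' with hD'
  have hd := finrank_ker_two hφ hψ
  have hd' := finrank_ker_two hφ hψ'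
  rw [← hD] at hd
  rw [← hD'] at hd'
  let e : D ≃ₗ[F] D' := LinearEquiv.ofFinrankEq D D' (by omega)
  have hpD : p ∈ D := ⟨h1, h2⟩
  have hp'D : p' ∈ D := ⟨h3, h4⟩
  have hpD' : p ∈ D' := ⟨h1, h2'⟩
  have hwD' : w ∈ D' := ⟨h3', h4'⟩
  have hli : ∀ {E : Submodule F V} (x y : E), LinearIndependent F ![(x : V), (y : V)] →
      LinearIndependent F ![x, y] := by
    intro E x y h
    apply LinearIndependent.of_comp E.subtype
    have h7 : (E.subtype ∘ ![x, y]) = ![(x : V), (y : V)] := by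
      funext i
      fin_cases i <;> rfl
    rw [h7]
    exact h
  have hu : LinearIndependent F ![e ⟨p, hpD⟩, e ⟨p', hp'D⟩] := by
    have h6 := (hli ⟨p, hpD⟩ ⟨p', hp'D⟩ hp).map' (e : D →ₗ[F] D') (LinearEquiv.ker e)
    have h7 : ![e ⟨p, hpD⟩, e ⟨p', hp'D⟩] = (e : D →ₗ[F] D') ∘ ![(⟨p, hpD⟩ : D), ⟨p', hp'D⟩] := by
      funext i
      fin_cases i <;> rfl
    rw [h7]
    exact h6
  have hu' : LinearIndependent F ![(⟨p, hpD'⟩ : D'), ⟨w, hwD'⟩] := hli _ _ hw
  obtain ⟨k, -, hk⟩ := Cfsg.Agent.H166.Cov.exists_sl_map hu hu' (by rw [Nat.card_eq_fintype_card, Fintype.card_fin]; omega)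
  have hk0 : k (e ⟨p, hpD⟩) = ⟨p, hpD'⟩ := hk 0
  have hk1 : k (e ⟨p', hp'D⟩) = ⟨w, hwD'⟩ := hk 1
  -- the linear map
  have hmem : ∀ v, (LinearMap.id - (rk φ y₁) - (rk ψ y₂) : V →ₗ[F] V) v ∈ D := by
    intro v
    refine ⟨?_, ?_⟩
    · rw [SetLike.mem_coe, LinearMap.mem_ker, LinearMap.sub_apply, LinearMap.sub_apply, LinearMap.id_apply, rk_apply,
        rk_apply, map_sub, map_sub, map_smul, map_smul, hy1, hy3, smul_eq_mul, mul_one, smul_zero, sub_self, sub_zero]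
    · rw [SetLike.mem_coe, LinearMap.mem_ker, LinearMap.sub_apply, LinearMap.sub_apply, LinearMap.id_apply, rk_apply,
        rk_apply, map_sub, map_sub, map_smul, map_smul, hy2, hy4, smul_zero, sub_zero, smul_eq_mul, mul_one, sub_self]
  let P : V →ₗ[F] D := (LinearMap.id - (rk φ y₁) - (rk ψ y₂) : V →ₗ[F] V).codRestrict D hmem
  let g₀ : V →ₗ[F] V := D'.subtype ∘ₗ (k : D' →ₗ[F] D') ∘ₗ (e : D →ₗ[F] D') ∘ₗ P + rk φ z₁ + rk ψ z₂
  have hg₀ : ∀ v, g₀ v = (k (e (P v)) : V) + φ v • z₁ + ψ v • z₂ := fun v => rfl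
  have hg1 : ∀ v, φ (g₀ v) = φ v := by
    intro v
    have h6 : φ (k (e (P v)) : V) = 0 := (k (e (P v))).2.1
    rw [hg₀, map_add, map_add, map_smul, map_smul, h6, hz1, hz3, smul_eq_mul, mul_one, smul_zero, zero_add, add_zero]
  have hg2 : ∀ v, ψ' (g₀ v) = ψ v := by
    intro v
    have h6 : ψ' (k (e (P v)) : V) = 0 := (k (e (P v))).2.2
    rw [hg₀, map_add, map_add, map_smul, map_smul, h6, hz2, hz4, smul_zero, smul_eq_mul, mul_one, zero_add, zero_add]
  have hPD : ∀ v (hv : v ∈ D), P v = ⟨v, hv⟩ := by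
    intro v hv
    apply Subtype.ext
    show v - φ v • y₁ - ψ v • y₂ = v
    have h6 : φ v = 0 := hv.1
    have h7 : ψ v = 0 := hv.2
    rw [h6, h7, zero_smul, zero_smul, sub_zero, sub_zero]
  have hgD : ∀ v (hv : v ∈ D), g₀ v = k (e ⟨v, hv⟩) := by
    intro v hv
    have h6 : φ v = 0 := hv.1
    have h7 : ψ v = 0 := hv.2
    rw [hg₀, hPD v hv, h6, h7, zero_smul, zero_smul, add_zero, add_zero]
  have hinj : Function.Injective g₀ := by
    rw [← LinearMap.ker_eq_bot, LinearMap.ker_eq_bot']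
    intro v hv
    have h6 := hg1 v
    have h7 := hg2 v
    rw [hv, map_zero] at h6 h7
    have hvD : v ∈ D := ⟨h6.symm, h7.symm⟩
    have h8 := hgD v hvD
    rw [hv] at h8
    have h9 : k (e ⟨v, hvD⟩) = 0 := Subtype.ext h8.symm
    rw [LinearEquiv.map_eq_zero_iff, LinearEquiv.map_eq_zero_iff] at h9
    exact congrArg Subtype.val h9
  let g : V ≃ₗ[F] V := LinearEquiv.ofInjectiveEndo g₀ hinj
  have hg : ∀ v, g v = g₀ v := fun v => rfl
  -- the correction of the determinant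
  obtain ⟨x, hxD, hxP⟩ : ∃ x ∈ D, x ∉ Submodule.span F (Set.range ![p, p']) := by
    by_contra hcon
    push Not at hcon
    have h6 : D ≤ Submodule.span F (Set.range ![p, p']) := hcon
    have h7 := Submodule.finrank_mono h6
    rw [finrank_span_eq_card hp, Fintype.card_fin] at h7
    omega
  obtain ⟨f, hf1, hf2⟩ := Submodule.exists_dual_map_eq_bot_of_notMem hxP inferInstance
  have hf3 : ∀ y ∈ Submodule.span F (Set.range ![p, p']), f y = 0 := by
    intro y hy
    have h6 : f y ∈ (Submodule.span F (Set.range ![p, p'])).map f := ⟨y, hy, rfl⟩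
    rw [hf2, Submodule.mem_bot] at h6
    exact h6
  have hfp : f p = 0 := hf3 p (Submodule.subset_span ⟨0, rfl⟩)
  have hfp' : f p' = 0 := hf3 p' (Submodule.subset_span ⟨1, rfl⟩)
  have hdet0 : LinearMap.det (g : V →ₗ[F] V) ≠ 0 := by
    intro h
    have := LinearEquiv.isUnit_det' g
    rw [h] at this
    exact not_isUnit_zero this
  set δ := LinearMap.det (g : V →ₗ[F] V) with hδ
  let f' : Dual F V := ((δ⁻¹ - 1) * (f x)⁻¹) • f
  have hf'x : 1 + f' x = δ⁻¹ := by
    show 1 + ((δ⁻¹ - 1) * (f x)⁻¹) * f x = δ⁻¹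
    rw [mul_assoc, inv_mul_cancel₀ hf1]
    ring
  have hunit : IsUnit (1 + f' x) := by rw [hf'x]; exact isUnit_iff_ne_zero.2 (inv_ne_zero hdet0)
  let u : V ≃ₗ[F] V := LinearEquiv.dilatransvection hunit
  have hu1 : ∀ v, u v = v + f' v • x := fun v => LinearEquiv.dilatransvection.apply
  have hudet : LinearMap.det (u : V →ₗ[F] V) = δ⁻¹ := by
    have h6 : (u : V →ₗ[F] V) = LinearMap.transvection f' x := LinearEquiv.dilatransvection.coe_toLinearMap
    rw [h6, LinearMap.transvection.det, hf'x]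
  have hx1 : φ x = 0 := hxD.1
  have hx2 : ψ x = 0 := hxD.2
  have hf'p : f' p = 0 := by show _ * f p = 0; rw [hfp, mul_zero]
  have hf'p' : f' p' = 0 := by show _ * f p' = 0; rw [hfp', mul_zero]
  refine ⟨g * u, ?_, ?_, ?_, fun v => ?_, fun v => ?_⟩
  · show LinearMap.det ((g : V →ₗ[F] V) ∘ₗ (u : V →ₗ[F] V)) = 1
    rw [LinearMap.det_comp, hudet, ← hδ, mul_inv_cancel₀ hdet0]
  · show g (u p) = p
    rw [hu1, hf'p, zero_smul, add_zero, hg, hgD p hpD, hk0]
  · show g (u p') = w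
    rw [hu1, hf'p', zero_smul, add_zero, hg, hgD p' hp'D, hk1]
  · show φ (g (u v)) = φ v
    rw [hg, hg1, hu1, map_add, map_smul, hx1, smul_zero, add_zero]
  · show ψ' (g (u v)) = ψ v
    rw [hg, hg2, hu1, map_add, map_smul, hx2, smul_zero, add_zero]

end

section

variable {F V : Type} [Field F] [Finite F] [AddCommGroup V] [Module F V] [FiniteDimensional F V]

/-- the number of functionals killing two independent vectors -/
theorem card_dual_ann_two {p w : V} (h : LinearIndependent F ![p, w]) :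
    Nat.card {ψ : Dual F V // ψ p = 0 ∧ ψ w = 0} = Nat.card F ^ (finrank F V - 2) := by
  have hVfin : Finite V := Module.finite_of_finite F
  have h1 : Nat.card {ψ : Dual F V // ψ p = 0 ∧ ψ w = 0} =
      Nat.card (Submodule.span F (Set.range ![p, w])).dualAnnihilator := by
    refine Nat.card_congr (Equiv.subtypeEquivRight fun ψ => ?_)
    rw [Submodule.mem_dualAnnihilator]
    constructor
    · rintro ⟨h1, h2⟩ x hx
      have h3 : Submodule.span F (Set.range ![p, w]) ≤ LinearMap.ker ψ := by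
        rw [Submodule.span_le]
        rintro _ ⟨i, rfl⟩
        fin_cases i
        · exact h1
        · exact h2
      exact h3 hx
    · intro h1
      exact ⟨h1 p (Submodule.subset_span ⟨0, rfl⟩), h1 w (Submodule.subset_span ⟨1, rfl⟩)⟩
  rw [h1, Module.natCard_eq_pow_finrank (K := F)]
  congr 1
  have h2 := Subspace.finrank_add_finrank_dualAnnihilator_eq (Submodule.span F (Set.range ![p, w]))
  rw [finrank_span_eq_card h, Fintype.card_fin] at h2
  omega

end

end Cfsg.Agent.H232.IFR
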