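import Cfsg.Agent.H407.IF.Cls

/-!
# S5719, `Sp_{2m}(q)`, `q` even: from an involution to an involution of rank at most two (helper232)

`exists_rank_le_two` : `X ≤ Sp B` with the inequalities `Hyp` and an involution contains an involution `t` with
`rank (t - 1) ≤ 2`.
-/

set_option autoImplicit false
set_option linter.unusedSectionVars false

namespace Cfsg.Agent.H232.IFS

open Module Subgroup Cfsg.Agent.H74.Psp Cfsg.Agent.H407.IF

section chain

/-- lower bound for the order by a chain of stabilisers -/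
theorem card_chain {G V : Type*} [Group G] [Finite G] [MulAction G V] [Finite V] (P : Subgroup G) (v : ℕ → V)
    (N : ℕ → ℕ) (s : ℕ)
    (h : ∀ j < s, ∃ S : Set V, N j ≤ S.ncard ∧ ∀ w ∈ S, ∃ x ∈ P, (∀ i < j, x • v i = v i) ∧ x • v j = w) :
    ∏ j ∈ Finset.range s, N j ≤ Nat.card P := by
  let Q : ℕ → Subgroup G := fun j =>
    { carrier := {x | x ∈ P ∧ ∀ i < j, x • v i = v i}
      one_mem' := ⟨P.one_mem, fun i _ => one_smul _ _⟩
      mul_mem' := fun {x y} hx hy => ⟨P.mul_mem hx.1 hy.1, fun i hi => by rw [mul_smul, hy.2 i hi, hx.2 i hi]⟩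
      inv_mem' := fun {x} hx => ⟨P.inv_mem hx.1, fun i hi => by rw [inv_smul_eq_iff, hx.2 i hi]⟩ }
  have key : ∀ j ≤ s, (∏ i ∈ Finset.range j, N i) * Nat.card (Q j) ≤ Nat.card P := by
    intro j
    induction j with
    | zero =>
      intro _
      rw [Finset.prod_range_zero, one_mul]
      exact Subgroup.card_le_of_le fun x hx => hx.1
    | succ j ih =>
      intro hj
      refine le_trans ?_ (ih (by omega))
      rw [Finset.prod_range_succ, mul_assoc]
      refine Nat.mul_le_mul_left _ ?_
      obtain ⟨S, hS, hx⟩ := h j (by omega)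
      choose! x hxP hxi hxj using hx
      refine (Nat.mul_le_mul_right _ hS).trans ?_
      rw [← Nat.card_coe_set_eq, ← Nat.card_prod]
      refine Nat.card_le_card_of_injective (fun p : S × Q (j + 1) => (⟨x p.1 * p.2, ?_, ?_⟩ : Q j)) ?_
      · exact P.mul_mem (hxP _ p.1.2) p.2.2.1
      · intro i hi
        rw [mul_smul, p.2.2.2 i (by omega), hxi _ p.1.2 i hi]
      · rintro ⟨⟨w, hw⟩, y, hy⟩ ⟨⟨w', hw'⟩, y', hy'⟩ hp
        have h1 : x w * y = x w' * y' := congrArg Subtype.val hp
        have h2 : w = w' := by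
          have h3 := congrArg (fun g => g • v j) h1
          simp only [mul_smul] at h3
          rw [hy.2 j (by omega), hy'.2 j (by omega), hxj w hw, hxj w' hw'] at h3
          exact h3
        subst h2
        have h3 : y = y' := mul_left_cancel h1
        subst h3
        rfl
  have h1 := key s le_rfl
  have h2 : 0 < Nat.card (Q s) := Nat.card_pos
  exact (Nat.le_mul_of_pos_right _ h2).trans h1

end chain

variable {F V : Type*} [Field F] [AddCommGroup V] [Module F V] {B : V →ₗ[F] V →ₗ[F] F}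

/-- the elements commuting with `a`, trivial on `Z` and on `Z^⊥/Z` -/
def PP (a : Sp B) (Z : Submodule F V) : Subgroup (Sp B) where
  carrier := {x | x * a = a * x ∧ (∀ z ∈ Z, x • z = z) ∧ ∀ y, (∀ z ∈ Z, B y z = 0) → x • y - y ∈ Z}
  one_mem' := ⟨by rw [one_mul, mul_one], fun z _ => one_smul _ z, fun y _ => by
    rw [one_smul, sub_self]; exact Z.zero_mem⟩
  mul_mem' := by
    rintro x y ⟨hx, hx1, hx2⟩ ⟨hy, hy1, hy2⟩
    refine ⟨by rw [mul_assoc, hy, ← mul_assoc, hx, mul_assoc], fun z hz => by rw [mul_smul, hy1 z hz, hx1 z hz], ?_⟩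
    intro v hv
    have h1 : x • y • v - y • v ∈ Z := by
      apply hx2
      intro z hz
      rw [← hv z hz]
      nth_rewrite 1 [← hy1 z hz]
      exact B_smul_smul y v z
    have h2 := Z.add_mem h1 (hy2 v hv)
    rwa [sub_add_sub_cancel, ← mul_smul] at h2
  inv_mem' := by
    rintro x ⟨hx, hx1, hx2⟩
    have hi : ∀ z ∈ Z, x⁻¹ • z = z := fun z hz => by rw [inv_smul_eq_iff, hx1 z hz]
    refine ⟨?_, hi, ?_⟩
    · have h1 : x⁻¹ * a = x⁻¹ * (a * x) * x⁻¹ := by group
      rw [h1, ← hx]; group
    · intro v hv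
      have h2 := hi _ (hx2 v hv)
      rw [smul_sub, inv_smul_smul] at h2
      have h3 := Z.neg_mem (hx2 v hv)
      rw [← h2, neg_sub] at h3
      exact h3

theorem PP.comm {a : Sp B} {Z : Submodule F V} {x : Sp B} (hx : x ∈ PP a Z) : x * a = a * x := hx.1

theorem PP.pow_four (h2 : (2 : F) = 0) {a : Sp B} {Z : Submodule F V} {x : Sp B} (hx : x ∈ PP a Z) :
    (x * x) * (x * x) = 1 := by
  obtain ⟨-, h3, h4⟩ := hx
  have h5 : ∀ v, ∀ z ∈ Z, B (nl x v) z = 0 := by
    intro v z hz
    rw [nl_apply, map_sub, LinearMap.sub_apply, sub_eq_zero]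
    nth_rewrite 1 [← h3 z hz]
    exact B_smul_smul x v z
  have h6 : ∀ v, nl x (nl x v) ∈ Z := fun v => h4 _ (h5 v)
  have h7 : ∀ z ∈ Z, nl x z = 0 := fun z hz => by rw [nl_apply, h3 z hz, sub_self]
  have h8 : ∀ v, x • x • v = v + nl x (nl x v) := by
    intro v
    rw [smul_eq_add x v, smul_eq_add x (v + nl x v), map_add]
    have : v + nl x v + (nl x v + nl x (nl x v)) = v + (nl x v + nl x v) + nl x (nl x v) := by abel
    rw [this, addself h2, add_zero]
  apply Sp.ext'
  intro v
  rw [one_smul, mul_smul, mul_smul, mul_smul, h8 v, h8, map_add, map_add, h7 _ (h6 v), map_zero, add_zero, add_assoc,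
    addself h2, add_zero]

/-- dual vectors -/
theorem exists_dual_fam [FiniteDimensional F V] (hB : Symp B) {k : ℕ} {u : Fin k → V} (hu : LinearIndependent F u) :
    ∃ v : Fin k → V, ∀ i j, B (v i) (u j) = if i = j then 1 else 0 := by
  have h : ∀ i, ∃ y, ∀ j, B y (u j) = if i = j then 1 else 0 := by
    intro i
    have h1 : u i ∉ Submodule.span F (u '' {i}ᶜ) := hu.notMem_span_image (by simp)
    obtain ⟨y, hy1, hy2⟩ := sep hB _ h1
    refine ⟨-y, fun j => ?_⟩
    rw [map_neg, LinearMap.neg_apply, ← skew hB]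
    split_ifs with hij
    · rw [← hij, hy2]
    · exact hy1 _ (Submodule.subset_span ⟨j, fun h => hij h.symm, rfl⟩)
  choose v hv using h
  exact ⟨v, hv⟩

/-- the rank of the elements of `PP` -/
theorem PP.rank_le [FiniteDimensional F V] {a : Sp B} {s : ℕ} {u v : Fin s → V}
    (huv : ∀ i j, B (v i) (u j) = if i = j then 1 else 0) {x : Sp B} (hx : x ∈ PP a (Submodule.span F (Set.range u))) :
    finrank F (LinearMap.range (nl x)) ≤ 2 * s := by
  obtain ⟨-, h3, h4⟩ := hx
  have h1 : LinearMap.range (nl x) ≤ Submodule.span F (Set.range u) ⊔ Submodule.span F (Set.range fun i => nl x (v i)) := by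
    rintro _ ⟨y, rfl⟩
    have h5 : nl x (y - ∑ i, B y (u i) • v i) ∈ Submodule.span F (Set.range u) := by
      apply h4
      intro z hz
      induction hz using Submodule.span_induction with
      | mem z hz =>
        obtain ⟨j, rfl⟩ := hz
        rw [map_sub, LinearMap.sub_apply, map_sum, LinearMap.sum_apply, Finset.sum_eq_single j]
        · rw [map_smul, LinearMap.smul_apply, huv, if_pos rfl, smul_eq_mul, mul_one, sub_self]
        · intro i _ hi
          rw [map_smul, LinearMap.smul_apply, huv, if_neg hi, smul_zero]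
        · intro hj
          exact absurd (Finset.mem_univ j) hj
      | zero => rw [map_zero]
      | add a b _ _ ha hb => rw [map_add, ha, hb, add_zero]
      | smul c a _ ha => rw [map_smul, ha, smul_zero]
    have h6 : nl x (∑ i, B y (u i) • v i) ∈ Submodule.span F (Set.range fun i => nl x (v i)) := by
      rw [map_sum]
      refine Submodule.sum_mem _ fun i _ => ?_
      rw [map_smul]
      exact Submodule.smul_mem _ _ (Submodule.subset_span ⟨i, rfl⟩)
    have h7 : nl x y = nl x (y - ∑ i, B y (u i) • v i) + nl x (∑ i, B y (u i) • v i) := by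
      rw [← map_add, sub_add_cancel]
    rw [h7]
    exact Submodule.add_mem_sup h5 h6
  have h5 := Submodule.finrank_mono h1
  have h6 := Submodule.finrank_add_le_finrank_add_finrank (Submodule.span F (Set.range u))
    (Submodule.span F (Set.range fun i => nl x (v i)))
  have h7 := finrank_range_le_card (R := F) u
  have h8 := finrank_range_le_card (R := F) fun i => nl x (v i)
  rw [Fintype.card_fin] at h7 h8
  have h9 : (Set.range u).finrank F = finrank F (Submodule.span F (Set.range u)) := rfl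
  have h10 : (Set.range fun i => nl x (v i)).finrank F =
    finrank F (Submodule.span F (Set.range fun i => nl x (v i))) := rfl
  omega

section fin

variable [Finite F] [Finite V]

/-- **one step**: a subgroup of exponent four commuting with `a`, large -/
theorem step {X : Subgroup (Sp B)} (hX : Hyp X) {a : Sp B} (haX : a ∈ X) (ha1 : a ≠ 1) (ha : a * a = 1)
    {P : Subgroup (Sp B)} (hP : ∀ x ∈ P, x * a = a * x) (h4 : ∀ x ∈ P, (x * x) * (x * x) = 1)
    (hc : (centralizer ({a} : Set (Sp B))).index ≤ Nat.card P ^ 5) : ∃ b ∈ X, b ∈ P ∧ b ≠ 1 ∧ b * b = 1 := by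
  have h1 := hX.e2 a haX ha1 ha P hP
  by_cases h : X.subgroupOf P = ⊥
  · exfalso
    rw [relIndex, h, index_bot] at h1
    omega
  · obtain ⟨⟨⟨y, hyP⟩, hyX⟩, hy⟩ := Subgroup.ne_bot_iff_exists_ne_one.1 h
    have hy1' : y ≠ 1 := fun h0 => hy (Subtype.ext (Subtype.ext h0))
    have hyX' : y ∈ X := hyX
    by_cases h5 : y * y = 1
    · exact ⟨y, hyX', hyP, hy1', h5⟩
    · exact ⟨y * y, X.mul_mem hyX' hyX', P.mul_mem hyP hyP, h5, h4 y hyP⟩

/-- `v + R` for a subspace `R` -/
theorem ncard_shift (R : Submodule F V) (v : V) :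
    ((fun w : R => v + (w : V)) '' Set.univ).ncard = Nat.card F ^ finrank F R := by
  rw [Set.ncard_image_of_injective _ (fun a b h => Subtype.ext (add_left_cancel h)), Set.ncard_univ,
    Module.natCard_eq_pow_finrank (K := F)]

/-- intersection with hyperplanes -/
theorem finrank_cut (W : Submodule F V) (j : ℕ) (v : Fin j → V) :
    ∃ R : Submodule F V, (∀ w ∈ R, w ∈ W ∧ ∀ i, B (v i) w = 0) ∧ finrank F W - j ≤ finrank F R := by
  set φ : W →ₗ[F] (Fin j → F) := LinearMap.pi fun i => (B (v i)) ∘ₗ W.subtype with hφ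
  refine ⟨(LinearMap.ker φ).map W.subtype, ?_, ?_⟩
  · rintro _ ⟨w, hw, rfl⟩
    refine ⟨w.2, fun i => ?_⟩
    exact congrFun hw i
  · rw [LinearEquiv.finrank_eq (Submodule.equivMapOfInjective W.subtype W.injective_subtype _).symm]
    have h1 := LinearMap.finrank_range_add_finrank_ker φ
    have h2 := Submodule.finrank_le (LinearMap.range φ)
    rw [Module.finrank_fin_fun] at h2
    omega

theorem range_le_ker (h2 : (2 : F) = 0) {a : Sp B} (ha : a * a = 1) : LinearMap.range (nl a) ≤ LinearMap.ker (nl a) := by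
  rintro _ ⟨x, rfl⟩
  exact nl_nl h2 ha x

theorem ker_orth {a : Sp B} (ha : a * a = 1) {u w : V} (hu : u ∈ LinearMap.range (nl a))
    (hw : nl a w = 0) : B u w = 0 := by
  obtain ⟨x, rfl⟩ := hu
  rw [nl_sym ha, hw, map_zero]

/-- **the general step**: rank `k`, `2 s < k` -/
theorem card_PP_ge (hB : Symp B) (h2 : (2 : F) = 0) {a : Sp B} (ha : a * a = 1) {k : ℕ}
    {u v : Fin k → V} (hu : ∀ i, u i ∈ LinearMap.range (nl a))
    (huv : ∀ i j, B (v i) (u j) = if i = j then 1 else 0) :
    Nat.card F ^ (∑ j ∈ Finset.range k, (finrank F (LinearMap.ker (nl a)) - j)) ≤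
      Nat.card (PP a (Submodule.span F (Set.range u))) := by
  classical
  rw [← Finset.prod_pow_eq_pow_sum]
  refine card_chain _ (fun i => if h : i < k then v ⟨i, h⟩ else 0) _ _ ?_
  intro j hj
  obtain ⟨R, hR, hd⟩ := finrank_cut (B := B) (LinearMap.ker (nl a)) j fun i => v ⟨i, by omega⟩
  refine ⟨(fun w : R => v ⟨j, hj⟩ + (w : V)) '' Set.univ, ?_, ?_⟩
  · rw [ncard_shift]
    exact Nat.pow_le_pow_right Nat.card_pos hd
  · rintro _ ⟨⟨w, hw⟩, -, rfl⟩
    obtain ⟨hwk, hwv⟩ := hR w hw
    have hwk' : nl a w = 0 := hwk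
    have hzw : B (u ⟨j, hj⟩) w = 0 := ker_orth ha (hu _) hwk'
    have huu : ∀ z ∈ Submodule.span F (Set.range u), B z w = 0 ∧ B z (u ⟨j, hj⟩) = 0 := by
      intro z hz
      induction hz using Submodule.span_induction with
      | mem z hz =>
        obtain ⟨i, rfl⟩ := hz
        exact ⟨ker_orth ha (hu _) hwk', ker_orth ha (hu _) (range_le_ker h2 ha (hu _))⟩
      | zero => exact ⟨by rw [map_zero, LinearMap.zero_apply], by rw [map_zero, LinearMap.zero_apply]⟩
      | add a b _ _ ha hb => exact ⟨by rw [map_add, LinearMap.add_apply, ha.1, hb.1, add_zero],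
          by rw [map_add, LinearMap.add_apply, ha.2, hb.2, add_zero]⟩
      | smul c a _ ha => exact ⟨by rw [map_smul, LinearMap.smul_apply, ha.1, smul_zero],
          by rw [map_smul, LinearMap.smul_apply, ha.2, smul_zero]⟩
    refine ⟨E B (u ⟨j, hj⟩) w (-B (v ⟨j, hj⟩) w), ⟨?_, ?_, ?_⟩, ?_, ?_⟩
    · have h3 := conj_E hB a hzw (-B (v ⟨j, hj⟩) w)
      have h4 : a • u ⟨j, hj⟩ = u ⟨j, hj⟩ := nl_eq_zero.1 (range_le_ker h2 ha (hu _))
      have h5 : a • w = w := nl_eq_zero.1 hwk'
      rw [h4, h5] at h3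
      nth_rewrite 1 [← h3]
      group
    · intro z hz
      rw [E_smul hB hzw, (huu z hz).1, (huu z hz).2, zero_smul, mul_zero, zero_smul, add_zero, add_zero, add_zero]
    · intro y hy
      rw [E_smul hB hzw, hy _ (Submodule.subset_span ⟨_, rfl⟩), zero_smul, mul_zero, zero_smul, add_zero, add_zero,
        add_sub_cancel_left]
      exact Submodule.smul_mem _ _ (Submodule.subset_span ⟨_, rfl⟩)
    · intro i hi
      have hik : i < k := by omega
      have h6 : (⟨i, hik⟩ : Fin k) ≠ ⟨j, hj⟩ := fun h0 => by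
        have := congrArg Fin.val h0
        simp at this
        omega
      rw [dif_pos hik, E_smul hB hzw, huv, if_neg h6, zero_smul, mul_zero, zero_smul, add_zero, add_zero]
      have h7 : B (v ⟨i, hik⟩) w = 0 := hwv ⟨i, hi⟩
      rw [h7, zero_smul, add_zero]
    · rw [dif_pos hj, E_smul hB hzw, huv, if_pos rfl, one_smul, mul_one, neg_smul, add_assoc, add_neg_cancel, add_zero]

/-- **the step for rank three and four** -/
theorem card_PP_one (hB : Symp B) (h2 : (2 : F) = 0) {a : Sp B} (ha : a * a = 1) {z₀ v : V}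
    (h0 : B z₀ (nl a z₀) = 0) (h1 : nl a z₀ ≠ 0) (hv : B v (nl a z₀) = 1) :
    Nat.card F ^ (finrank F (LinearMap.ker (nl a)) + 1) ≤ Nat.card (PP a (Submodule.span F {nl a z₀})) := by
  set z := nl a z₀ with hz
  have h3 := card_chain (PP a (Submodule.span F {z})) (fun _ => v)
    (fun _ => Nat.card F ^ (finrank F (LinearMap.ker (nl a)) + 1)) 1 ?_
  · rwa [Finset.prod_range_one] at h3
  · intro j hj
    obtain rfl : j = 0 := by omega
    set R : Submodule F V := LinearMap.ker (nl a) ⊔ Submodule.span F {z₀} with hR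
    have hd : finrank F R = finrank F (LinearMap.ker (nl a)) + 1 := by
      have h4 := Submodule.finrank_sup_add_finrank_inf_eq (LinearMap.ker (nl a)) (Submodule.span F {z₀})
      have hz0 : z₀ ≠ 0 := by
        rintro rfl
        exact h1 (map_zero _)
      have h5 : LinearMap.ker (nl a) ⊓ Submodule.span F {z₀} = ⊥ := by
        rw [eq_bot_iff]
        rintro x ⟨hx, hx'⟩
        obtain ⟨c, rfl⟩ := Submodule.mem_span_singleton.1 hx'
        have h6 : c • z = 0 := by rw [hz, ← map_smul]; exact hx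
        rcases smul_eq_zero.1 h6 with h7 | h7
        · rw [h7, zero_smul]; exact Submodule.zero_mem _
        · exact absurd h7 h1
      rw [h5, finrank_bot, finrank_span_singleton hz0, add_zero] at h4
      exact h4
    refine ⟨(fun w : R => v + (w : V)) '' Set.univ, ?_, ?_⟩
    · rw [ncard_shift, hd]
    · rintro _ ⟨⟨w, hw⟩, -, rfl⟩
      obtain ⟨w1, hw1, w2, hw2, hw12⟩ := Submodule.mem_sup.1 hw
      obtain ⟨c, rfl⟩ := Submodule.mem_span_singleton.1 hw2
      have hw1' : nl a w1 = 0 := hw1
      have hzz : nl a z = 0 := nl_nl h2 ha z₀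
      have hzw : B z w = 0 := by
        rw [← hw12, map_add, map_smul, orth_symm hB h0, smul_zero, add_zero]
        exact ker_orth ha ⟨z₀, rfl⟩ hw1'
      have haz : a • z = z := nl_eq_zero.1 hzz
      have haw : a • w = w + c • z := by
        rw [smul_eq_add, ← hw12, map_add, hw1', map_smul, zero_add]
      refine ⟨E B z w (-B v w), ⟨?_, ?_, ?_⟩, fun i hi => absurd hi (Nat.not_lt_zero _), ?_⟩
      · have h3 := conj_E hB a hzw (-B v w)
        rw [haz, haw, E_add_v hB hzw, h2, zero_mul, add_zero] at h3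
        nth_rewrite 1 [← h3]
        group
      · intro y hy
        obtain ⟨d, rfl⟩ := Submodule.mem_span_singleton.1 hy
        rw [smul_fsmul, E_smul_v hB hzw]
      · intro y hy
        rw [E_smul hB hzw, hy _ (Submodule.mem_span_singleton_self z), zero_smul, mul_zero, zero_smul, add_zero,
          add_zero, add_sub_cancel_left]
        exact Submodule.smul_mem _ _ (Submodule.mem_span_singleton_self z)
      · show E B z w (-B v w) • v = v + w
        rw [E_smul hB hzw, hv, one_smul, mul_one, neg_smul, add_assoc, add_neg_cancel, add_zero]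

/-- an isotropic vector for `B x (a - 1) y` -/
theorem exists_iso (hB : Symp B) (h2 : (2 : F) = 0) {a : Sp B} (ha : a * a = 1)
    (hk : 2 ≤ finrank F (LinearMap.range (nl a))) : ∃ z, B z (nl a z) = 0 ∧ nl a z ≠ 0 := by
  have hpos : 0 < finrank F (LinearMap.range (nl a)) := by omega
  have hnt : Nontrivial (LinearMap.range (nl a)) := Module.finrank_pos_iff.1 hpos
  obtain ⟨⟨x', hx'⟩, hx0⟩ := exists_ne (0 : LinearMap.range (nl a))
  obtain ⟨⟨y', hy'⟩, hli⟩ := exists_linearIndependent_pair_of_one_lt_finrank (R := F) (by omega) hx0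
  obtain ⟨x, rfl⟩ := hx'
  obtain ⟨y, rfl⟩ := hy'
  rw [LinearIndependent.pair_iff] at hli
  have hli' : ∀ s t : F, s • nl a x + t • nl a y = 0 → s = 0 ∧ t = 0 := fun s t h => hli s t (Subtype.ext h)
  by_cases h3 : B y (nl a y) = 0
  · refine ⟨y, h3, fun h => ?_⟩
    have := (hli' 0 1 (by rw [h, smul_zero, zero_smul, add_zero])).2
    exact one_ne_zero this
  · have hch : ringChar F = 2 := by
      have h4 : (ringChar F) ∣ 2 := (ringChar.spec F 2).1 (by exact_mod_cast h2)
      rcases (Nat.dvd_prime Nat.prime_two).1 h4 with h5 | h5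
      · exact absurd h5 (CharP.ringChar_ne_one)
      · exact h5
    have := Fintype.ofFinite F
    obtain ⟨c, hc⟩ := FiniteField.isSquare_of_char_two hch (B x (nl a x) * (B y (nl a y))⁻¹)
    refine ⟨x + c • y, ?_, fun h => ?_⟩
    · have h4 : B x (nl a y) + B y (nl a x) = 0 := by
        rw [← nl_sym ha y x, skew hB (nl a y) x, add_neg_cancel]
      have h5 : c * c * B y (nl a y) = B x (nl a x) := by rw [← hc, inv_mul_cancel_right₀ h3]
      have h6 : B (x + c • y) (nl a (x + c • y)) =
          B x (nl a x) + c * (B x (nl a y) + B y (nl a x)) + c * c * B y (nl a y) := by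
        simp only [map_add, map_smul, LinearMap.add_apply, LinearMap.smul_apply, smul_eq_mul]
        ring
      rw [h6, h4, h5, mul_zero, add_zero, ← two_mul, h2, zero_mul]
    · rw [map_add, map_smul] at h
      have := (hli' 1 c (by rw [one_smul]; exact h)).1
      exact one_ne_zero this

end fin

theorem sum_sub_aux (A s : ℕ) (h : s ≤ A + 1) :
    2 * ∑ j ∈ Finset.range s, (A - j) = s * (2 * A + 1) - s * s := by
  induction s with
  | zero => simp
  | succ s ih =>
    rw [Finset.sum_range_succ, mul_add, ih (by omega)]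
    obtain ⟨d, rfl⟩ : ∃ d, A = s + d := ⟨A - s, by omega⟩
    have h1 : s * (2 * (s + d) + 1) = s * s + (s * s + 2 * s * d + s) := by ring
    have h2 : (s + 1) * (2 * (s + d) + 1) = (s + 1) * (s + 1) + (s * s + 2 * s * d + s + 2 * d) := by ring
    rw [h1, h2, Nat.add_sub_cancel_left, Nat.add_sub_cancel_left, Nat.add_sub_cancel_left]

theorem num_a {s d k A : ℕ} (hs : 1 ≤ s) (hk : k = 2 * s + 1 ∨ (2 ≤ s ∧ k = 2 * s + 2)) (hA : A = k + 2 * d) :
    k * (A + 1) + 2 ≤ (∑ j ∈ Finset.range s, (A - j)) * 5 := by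
  have h1 := sum_sub_aux A s (by omega)
  set S := ∑ j ∈ Finset.range s, (A - j) with hS
  suffices h : 2 * (k * (A + 1) + 2) ≤ 2 * S * 5 by omega
  rw [h1]
  rcases hk with rfl | ⟨hs2, rfl⟩
  · subst hA
    have h2 : s * (2 * (2 * s + 1 + 2 * d) + 1) = s * s + s * (3 * s + 3 + 4 * d) := by ring
    rw [h2, Nat.add_sub_cancel_left]
    obtain ⟨e, rfl⟩ : ∃ e, s = e + 1 := ⟨s - 1, by omega⟩
    nlinarith [Nat.zero_le (e * d), Nat.zero_le (e * e)]
  · subst hA
    have h2 : s * (2 * (2 * s + 2 + 2 * d) + 1) = s * s + s * (3 * s + 5 + 4 * d) := by ring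
    rw [h2, Nat.add_sub_cancel_left]
    obtain ⟨e, rfl⟩ : ∃ e, s = e + 2 := ⟨s - 2, by omega⟩
    nlinarith [Nat.zero_le (e * d), Nat.zero_le (e * e)]

section main

variable [Finite F] [Finite V]

/-- one step of the descent -/
theorem descent (hB : Symp B) (h2 : (2 : F) = 0) {m : ℕ} (hV : Nat.card V = Nat.card F ^ (2 * m)) {X : Subgroup (Sp B)}
    (hX : Hyp X) {a : Sp B} (haX : a ∈ X) (ha1 : a ≠ 1) (ha : a * a = 1)
    (hk : 3 ≤ finrank F (LinearMap.range (nl a))) :
    ∃ b ∈ X, b ≠ 1 ∧ b * b = 1 ∧ finrank F (LinearMap.range (nl b)) < finrank F (LinearMap.range (nl a)) := by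
  set k := finrank F (LinearMap.range (nl a)) with hkdef
  have hkm : k ≤ m := H407.IF.rank_le h2 hV ha
  have hidx := H407.IF.index_le hB h2 hV hkm (t := a) ⟨ha, rfl⟩
  have hq : 2 ≤ Nat.card F := Finite.one_lt_card
  have hV' : finrank F V = 2 * m := by
    have h3 := Module.natCard_eq_pow_finrank (K := F) (V := V)
    rw [hV] at h3
    exact (Nat.pow_right_injective Finite.one_lt_card h3).symm
  have hker : finrank F (LinearMap.ker (nl a)) = k + 2 * (m - k) := by
    have h4 := LinearMap.finrank_range_add_finrank_ker (nl a)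
    rw [hV', ← hkdef] at h4
    omega
  have hA1 : 2 * m - k + 1 = (k + 2 * (m - k)) + 1 := by omega
  rw [hA1] at hidx
  have hidx' : ∀ N, k * ((k + 2 * (m - k)) + 1) + 2 ≤ N * 5 →
      (centralizer ({a} : Set (Sp B))).index ≤ (Nat.card F ^ N) ^ 5 := by
    intro N hN
    refine hidx.trans ?_
    rw [← pow_mul]
    refine le_trans ?_ (Nat.pow_le_pow_right (by omega) hN)
    rw [pow_add _ (k * _) 2, mul_comm]
    refine Nat.mul_le_mul_left _ ?_
    calc 4 = 2 ^ 2 := rfl
      _ ≤ Nat.card F ^ 2 := Nat.pow_le_pow_left hq 2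
  by_cases h4 : k = 4
  · -- rank four
    obtain ⟨z₀, hz1, hz2⟩ := exists_iso hB h2 ha (by omega)
    obtain ⟨y, hy⟩ := sep0 hB hz2
    have hyv : B (-y) (nl a z₀) = 1 := by rw [map_neg, LinearMap.neg_apply, ← skew hB, hy]
    have hc := card_PP_one hB h2 ha hz1 hz2 hyv
    obtain ⟨b, hbX, hbP, hb1, hb⟩ := step hX haX ha1 ha (P := PP a (Submodule.span F {nl a z₀}))
      (fun x hx => PP.comm hx) (fun x hx => PP.pow_four h2 hx) (by
        refine (hidx' (finrank F (LinearMap.ker (nl a)) + 1) ?_).trans (Nat.pow_le_pow_left hc 5)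
        rw [hker, h4]
        omega)
    refine ⟨b, hbX, hb1, hb, ?_⟩
    have hr := PP.rank_le (B := B) (a := a) (s := 1) (u := fun _ => nl a z₀) (v := fun _ => -y) (by
      intro i j
      rw [hyv, if_pos (Subsingleton.elim i j)]) (x := b) (by
        rw [Set.range_const]
        exact hbP)
    omega
  · -- the other ranks
    set s := (k - 1) / 2 with hs
    have hks : k = 2 * s + 1 ∨ (2 ≤ s ∧ k = 2 * s + 2) := by omega
    have hsk : s ≤ k := by omega
    let bs := Module.finBasis F (LinearMap.range (nl a))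
    have hbs : finrank F (LinearMap.range (nl a)) = k := rfl
    set u₀ : Fin k → V := fun i => (bs i : V) with hu₀
    have hli : LinearIndependent F u₀ := bs.linearIndependent.map' (Submodule.subtype _) (Submodule.ker_subtype _)
    set u : Fin s → V := fun i => u₀ (Fin.castLE hsk i) with hu
    have hliu : LinearIndependent F u := hli.comp _ (Fin.castLE_injective hsk)
    obtain ⟨v, hv⟩ := exists_dual_fam hB hliu
    have hur : ∀ i, u i ∈ LinearMap.range (nl a) := fun i => (bs (Fin.castLE hsk i)).2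
    have hc := card_PP_ge hB h2 ha hur hv
    obtain ⟨b, hbX, hbP, hb1, hb⟩ := step hX haX ha1 ha (P := PP a (Submodule.span F (Set.range u)))
      (fun x hx => PP.comm hx) (fun x hx => PP.pow_four h2 hx) (by
        refine (hidx' _ ?_).trans (Nat.pow_le_pow_left hc 5)
        rw [hker]
        exact num_a (by omega) hks rfl)
    refine ⟨b, hbX, hb1, hb, ?_⟩
    have hr := PP.rank_le hv hbP
    omega

/-- **From an involution to an involution of rank at most two.** -/
theorem exists_rank_le_two (hB : Symp B) (h2 : (2 : F) = 0) {m : ℕ} (hV : Nat.card V = Nat.card F ^ (2 * m))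
    {X : Subgroup (Sp B)} (hX : Hyp X) (hi : ∃ t ∈ X, t ≠ 1 ∧ t * t = 1) :
    ∃ t ∈ X, t ≠ 1 ∧ t * t = 1 ∧ finrank F (LinearMap.range (nl t)) ≤ 2 := by
  obtain ⟨t, htX, ht1, ht⟩ := hi
  induction hn : finrank F (LinearMap.range (nl t)) using Nat.strong_induction_on generalizing t with
  | _ n ih =>
    by_cases h : n ≤ 2
    · exact ⟨t, htX, ht1, ht, by rw [hn]; exact h⟩
    · obtain ⟨b, hbX, hb1, hb, hlt⟩ := descent hB h2 hV hX htX ht1 ht (by omega)
      exact ih _ (by omega) b hbX hb1 hb rfl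

end main

end Cfsg.Agent.H232.IFS
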